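import Cfsg.Agent.FGS.FA.Defs
import Cfsg.Agent.S0145
import Cfsg.Agent.CHAR.Values
import Cfsg.Agent.CHAR.Linear

/-!
# Anticentral elements: the character condition
-/

set_option autoImplicit false
open Cfsg Subgroup

namespace CL.FA

/-- Proof: let `x ∈ G'` and suppose `g`, `x g` are not conjugate. Column orthogonality (`S0145`) gives
`∑ χ(g) conj χ(x g) = 0`. A character of degree one is multiplicative and trivial on `G'`, so its term is
`|χ(g)|² = 1`; the other terms vanish; the trivial character has degree one, so the sum is a positive integer. -/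
theorem an_of_chr {G : Type*} [Group G] [Finite G] (g : G)
    (hg : ∀ χ : IrrCharacter G, charDegree (χ : G → ℂ) ≠ 1 → (χ : G → ℂ) g = 0) : An g := by
  classical
  intro x hx
  by_contra hn
  have nc : ¬ IsConj g (x * g) := fun h => hn (isConj_iff.1 h)
  have h0 := (Cfsg.Agent.S0145.result g (x * g)).2 nc
  have := Fintype.ofFinite (IrrCharacter G)
  rw [finsum_eq_sum_of_fintype] at h0
  have key : ∀ χ : IrrCharacter G, (χ : G → ℂ) g * (starRingEnd ℂ) ((χ : G → ℂ) (x * g)) =
      ((if charDegree (χ : G → ℂ) = 1 then 1 else 0 : ℕ) : ℂ) := by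
    intro χ
    split_ifs with h
    · obtain ⟨lam, e⟩ := χ.2.isCharacter.exists_hom (χ.2.isCharacter.charDegree_eq_one_iff.1 h)
      rw [e]
      simp only [map_mul, CL.Char.hom_apply_of_mem_commutator lam hx, one_mul, Nat.cast_one]
      exact CL.Char.hom_mul_conj lam g
    · rw [hg χ h, zero_mul, Nat.cast_zero]
  rw [Finset.sum_congr rfl fun χ _ => key χ, ← Nat.cast_sum, Nat.cast_eq_zero,
    Finset.sum_eq_zero_iff] at h0
  have h1 := h0 (CL.Char.irrOne G) (Finset.mem_univ _)
  rw [CL.Char.irrOne_coe, CL.Char.charDegree_const_one] at h1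
  simp at h1

end CL.FA
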