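import Cfsg.Agent.FGS.FA.Defs

/-!
# Anticentral elements: the simple direct factors
-/

set_option autoImplicit false
set_option linter.unusedSectionVars false
open Cfsg Subgroup CL.Th CL.MSS CL.B2

namespace CL.FA

variable {X : Type*} [Group X] [Finite X] {a : X} {A G S V : Subgroup X}

namespace Cp0

theorem csym {P Q : Subgroup X} (h : P ≤ 𝐂 Q) : Q ≤ 𝐂 P := fun q hq p hp => (h hp q hq).symm

/-- a minimal normal subgroup of `G` -/
def Mi (G L : Subgroup X) : Prop :=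
  L ≠ ⊥ ∧ L ≤ G ∧ G ≤ 𝐍 L ∧ ∀ U ≤ L, U ≠ ⊥ → G ≤ 𝐍 U → U = L

theorem exists_mi (h : G ≠ ⊥) : ∃ L, Mi G L := by
  obtain ⟨L, ⟨h1, h2, h3⟩, hm⟩ := exists_minimal_of_wellFoundedLT
    (fun L : Subgroup X => L ≠ ⊥ ∧ L ≤ G ∧ G ≤ 𝐍 L) ⟨G, h, le_rfl, le_normalizer⟩
  exact ⟨L, h1, h2, h3, fun U u1 u2 u3 => le_antisymm u1 (hm ⟨u2, u1.trans h2, u3⟩ u1)⟩

theorem nrm_cj {L : Subgroup X} {b : X} (hb : b ∈ 𝐍 G) (h : G ≤ 𝐍 L) : G ≤ 𝐍 (b •ᶜ L) := by
  rw [← cj_normalizer, ← cj_eq_of_mem_normalizer hb]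
  exact cj_mono b h

theorem Mi.cj {L : Subgroup X} (m : Mi G L) {b : X} (hb : b ∈ 𝐍 G) : Mi G (b •ᶜ L) :=
  ⟨mt cj_eq_bot_iff.1 m.1, cj_le_of_mem_normalizer m.2.1 hb, nrm_cj hb m.2.2.1, fun U u1 u2 u3 => by
    rw [← m.2.2.2 (b⁻¹ •ᶜ U) (le_cj_iff.1 u1) (mt cj_eq_bot_iff.1 u2) (nrm_cj (inv_mem hb) u3),
      cj_inv_cj]⟩

theorem Mi.dich {L L' : Subgroup X} (m : Mi G L) (m' : Mi G L') : L' = L ∨ L' ≤ 𝐂 L := by
  by_cases e : L ⊓ L' = ⊥
  · refine Or.inr fun y hy x hx => ?_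
    have h1 : x * y * x⁻¹ * y⁻¹ ∈ L ⊓ L' := by
      refine ⟨?_, L'.mul_mem (conj_mem_of_normalizes m'.2.2.1 (m.2.1 hx) hy) (L'.inv_mem hy)⟩
      rw [mul_assoc, mul_assoc, ← mul_assoc y]
      exact mul_mem hx (conj_mem_of_normalizes m.2.2.1 (m'.2.1 hy) (inv_mem hx))
    rw [e, mem_bot, mul_inv_eq_one, mul_inv_eq_iff_eq_mul] at h1
    exact h1
  · have n := MSS.le_normalizer_inf m.2.2.1 m'.2.2.1
    exact Or.inl ((m'.2.2.2 _ inf_le_right e n).symm.trans (m.2.2.2 _ inf_le_left e n))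

theorem ctr (h : Ha a A G S) : G ⊓ 𝐂 G = ⊥ := by
  refine (h.min _ inf_le_left (MSS.le_normalizer_inf le_normalizer
    (MSS.le_normalizer_centralizer le_normalizer)) (MSS.le_normalizer_inf h.nrm
    (MSS.le_normalizer_centralizer h.nrm))).resolve_right fun e => h.nsol ?_
  exact Group.isSolvable_of_comm fun x y => Subtype.ext ((e.ge y.2).2 x x.2)

theorem join (h : Ha a A G S) {L : Subgroup X} (m : Mi G L) : ⨆ b : A, (b : X) •ᶜ L = G := by
  refine (h.min _ (iSup_le fun b => (m.cj (h.nrm b.2)).2.1)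
    (le_normalizer_of_cj_le fun x hx => ?_) (le_normalizer_of_cj_le fun x hx => ?_)).resolve_left
    fun e => m.1 (le_bot_iff.1 ((MSS.cj_one L).ge.trans ((le_iSup
      (fun b : A => (b : X) •ᶜ L) 1).trans e.le)))
  · rw [cj_iSup]
    exact iSup_mono fun b => (cj_eq_of_mem_normalizer ((m.cj (h.nrm b.2)).2.2.1 hx)).le
  · rw [cj_iSup]
    exact iSup_le fun b => (MSS.cj_mul x b L).ge.trans
      (le_iSup (fun b : A => (b : X) •ᶜ L) ⟨x * b, mul_mem hx b.2⟩)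

theorem cp (h : Ha a A G S) {L : Subgroup X} (m : Mi G L) : Cp A G L := by
  have sup : G ≤ L ⊔ (G ⊓ 𝐂 L) := by
    refine (join h m).ge.trans (iSup_le fun b => ?_)
    have mb := m.cj (h.nrm b.2)
    exact (m.dich mb).elim (fun e => e.le.trans le_sup_left)
      fun e => (le_inf mb.2.1 e).trans le_sup_right
  refine ⟨m.2.1, m.2.2.1, ?_, fun c => m.1 (le_bot_iff.1 ((le_inf m.2.1 (csym (sup.trans
    (sup_le ?_ inf_le_right)))).trans (ctr h).le)), fun g hg => ?_,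
    fun b hb => m.dich (m.cj (h.nrm hb))⟩
  · have := (nontrivial_iff_ne_bot L).2 m.1
    refine ⟨fun H hH => or_iff_not_imp_left.2 fun ne => ?_⟩
    have e := m.2.2.2 (H.map L.subtype) (map_subtype_le H)
      (mt (map_eq_bot_iff_of_injective H L.subtype_injective).1 ne) (sup.trans (sup_le
        (le_normalizer_of_cj_le fun x hx => cj_le_iff_forall.2 ?_) (inf_le_right.trans
          ((centralizer_le (map_subtype_le H)).trans (centralizer_le_normalizer _)))))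
    · exact map_injective L.subtype_injective
        (e.trans (by rw [← MonoidHom.range_eq_map, range_subtype]))
    · rintro _ ⟨y, hy, rfl⟩
      exact ⟨_, hH.conj_mem y hy ⟨x, hx⟩, rfl⟩
  · exact fun x hx y hy => congrArg Subtype.val (c.is_comm.comm (⟨y, hy⟩ : L) ⟨x, hx⟩)
  · exact (mem_sup_of_normalizes_left (inf_le_left.trans m.2.2.1)).1 (sup hg)

end Cp0

theorem Ha.exists_cp (h : Ha a A G S) (V0 : V ≠ ⊥) (VG : V ≤ G) : ∃ L, Cp A G L ∧ ¬ V ≤ 𝐂 L := by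
  obtain ⟨L, m⟩ := Cp0.exists_mi (G := G) fun e => V0 (le_bot_iff.1 (VG.trans e.le))
  by_contra hn
  refine V0 (le_bot_iff.1 ((le_inf VG (Cp0.csym ((Cp0.join h m).ge.trans
    (iSup_le fun b => Cp0.csym ?_)))).trans (Cp0.ctr h).le))
  by_contra c
  exact hn ⟨_, Cp0.cp h (m.cj (h.nrm b.2)), c⟩

end CL.FA
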