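import Cfsg.Agent.FGS.FZ.Defs2
import Cfsg.Agent.FGS.FZ.M0

/-!
# Anticentral elements: definitions
-/

set_option autoImplicit false
open Cfsg Subgroup CL.Th CL.MSS CL.B2

namespace CL.FA

variable {X : Type*} [Group X]

/-- The coset `X' a` is one conjugacy class. -/
def An (a : X) : Prop := ∀ x ∈ commutator X, ∃ y : X, y * a * y⁻¹ = x * a

/-- For every `A`-invariant subgroup `H` of `G` the elements of the coset `H a` are conjugate in `H A`. -/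
structure Ac (a : X) (A G : Subgroup X) : Prop where
  mem : a ∈ A
  cj : ∀ H ≤ G, A ≤ 𝐍 H → ∀ x ∈ H, ∃ y ∈ H ⊔ A, y * a * y⁻¹ = x * a

/-- A minimal counterexample. -/
structure Ha (a : X) (A G S : Subgroup X) : Prop where
  ac : Ac a A G
  nrm : A ≤ 𝐍 G
  syl : SylIn 2 S G
  AS : A ≤ 𝐍 S
  solv : ∀ H ≤ G, A ≤ 𝐍 H → H ≠ G → Group.IsSolvable H
  normal : G.Normal
  min : ∀ U ≤ G, G ≤ 𝐍 U → A ≤ 𝐍 U → U = ⊥ ∨ U = G
  nsol : ¬ Group.IsSolvable G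

/-- A simple direct factor of `G`. -/
structure Cp (A G L : Subgroup X) : Prop where
  le : L ≤ G
  nrm : G ≤ 𝐍 L
  simple : IsSimpleGroup L
  nab : ¬ IsMulCommutative L
  dec : ∀ g ∈ G, ∃ l ∈ L, ∃ k ∈ G ⊓ 𝐂 L, l * k = g
  cj : ∀ b ∈ A, b •ᶜ L = L ∨ b •ᶜ L ≤ 𝐂 L

/-- The module situation with the operator `α`. -/
structure Hq {W : Type*} [CommGroup W] (F S : Subgroup (MulAut W)) (α : MulAut W) : Prop
    extends FZ.Mo.Hm F S where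
  aF : α ∈ 𝐍 F
  aS : α ∈ 𝐍 S
  ec : ∀ h ∈ F, ∀ z : W, (h * α) z = z → ∀ f ∈ F, f z = z
  cj : ∀ x ∈ S, ∃ y ∈ 𝐍 F ⊓ 𝐍 S, y * α * y⁻¹ = x * α

end CL.FA
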