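import Cfsg.Agent.FGS.FA.Defs

/-!
# A set of involutions in a 2-group with few commuting pairs generates a dihedral group
-/

set_option autoImplicit false
open Cfsg Subgroup CL.Th CL.MSS CL.B2

namespace CL.FA

namespace Dh

variable {X : Type*} [Group X]

theorem sw {r d : X} (h : d * r = r⁻¹ * d) (k : ℤ) : d * r ^ k = r ^ (-k) * d := by
  have : d * r * d⁻¹ = r⁻¹ := by rw [h]; group
  have h2 : d * r ^ k * d⁻¹ = r ^ (-k) := by rw [← conj_zpow, this, inv_zpow']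
  rw [← h2]; group

/-- the dihedral group `R ∪ R d`. -/
def Δ {r d : X} (h : d * r = r⁻¹ * d) (hd : d * d = 1) : Subgroup X where
  carrier := {x | ∃ k : ℤ, x = r ^ k ∨ x = r ^ k * d}
  one_mem' := ⟨0, .inl (by simp)⟩
  mul_mem' := by
    rintro _ _ ⟨k, rfl | rfl⟩ ⟨l, rfl | rfl⟩
    · exact ⟨k + l, .inl (by group)⟩
    · exact ⟨k + l, .inr (by group)⟩
    · exact ⟨k - l, .inr (by rw [mul_assoc, sw h]; group)⟩
    · refine ⟨k - l, .inl ?_⟩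
      rw [mul_assoc, ← mul_assoc d, sw h, mul_assoc, hd]; group
  inv_mem' := by
    rintro _ ⟨k, rfl | rfl⟩
    · exact ⟨-k, .inl (by group)⟩
    · refine ⟨k, .inr ?_⟩
      rw [mul_inv_rev, inv_eq_of_mul_eq_one_right hd, ← zpow_neg, sw h, neg_neg]

theorem r1 {r : X} {m : ℕ} (o : orderOf r = 2 ^ (m + 2)) {k : ℤ} (h : r ^ k * r ^ k = 1) :
    r ^ k = 1 ∨ r ^ k = r ^ 2 ^ (m + 1) := by
  rw [← zpow_add, ← orderOf_dvd_iff_zpow_eq_one, o] at h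
  obtain ⟨t, ht⟩ := h
  have h1 : k = 2 ^ (m + 1) * t := by push_cast at ht; rw [pow_succ] at ht; linarith
  have h2 : r ^ ((2 : ℤ) ^ (m + 2)) = 1 := by
    have := pow_orderOf_eq_one r
    rw [o, ← zpow_natCast] at this
    simpa using this
  rcases Int.even_or_odd' t with ⟨s, rfl | rfl⟩
  · left
    rw [h1, show (2 : ℤ) ^ (m + 1) * (2 * s) = 2 ^ (m + 2) * s by ring, zpow_mul, h2, one_zpow]
  · right
    rw [h1, show (2 : ℤ) ^ (m + 1) * (2 * s + 1) = 2 ^ (m + 2) * s + 2 ^ (m + 1) by ring, zpow_add,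
      zpow_mul, h2, one_zpow, one_mul, ← zpow_natCast]
    simp

theorem r2 {r : X} {m : ℕ} (o : orderOf r = 2 ^ (m + 2)) {k : ℤ}
    (h : r ^ k * r ^ k = r ^ 2 ^ (m + 1)) : r ^ k = r ^ 2 ^ m ∨ r ^ k = (r ^ 2 ^ m)⁻¹ := by
  have e1 : r ^ 2 ^ m = r ^ ((2 : ℤ) ^ m) := by rw [← zpow_natCast]; simp
  have e2 : r ^ 2 ^ (m + 1) = r ^ ((2 : ℤ) ^ m) * r ^ ((2 : ℤ) ^ m) := by
    rw [← e1, ← pow_add]; congr 1; ring
  have h3 : r ^ (k - 2 ^ m) * r ^ (k - 2 ^ m) = 1 := by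
    calc _ = (r ^ k * r ^ k) * (r ^ ((2 : ℤ) ^ m) * r ^ ((2 : ℤ) ^ m))⁻¹ := by group
      _ = 1 := by rw [h, e2, mul_inv_cancel]
  have h4 : r ^ k = r ^ (k - 2 ^ m) * r ^ 2 ^ m := by rw [e1]; group
  rcases r1 o h3 with h5 | h5
  · left; rw [h4, h5, one_mul]
  · right
    rw [h4, h5, eq_inv_iff_mul_eq_one, ← pow_add, ← pow_add,
      show 2 ^ (m + 1) + 2 ^ m + 2 ^ m = 2 ^ (m + 2) by ring, ← o, pow_orderOf_eq_one]

end Dh

/-- Proof: take `d₁, d₂ ∈ D` with `r = d₁ d₂` of maximal order `2 ^ n`; `n ≥ 2` by `nc`. `R = zpowers r`,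
`e = r ^ 2 ^ (n - 2)`, `D₀ = d₁ R`; `d₁` inverts `R`; `D₀ ⊆ D` (`r ^ j d₁ r ^ (-j) = r ^ (2 j) d₁`, same for `d₂ = d₁ r`).
`e d₁ e⁻¹ = e² d₁ ∈ D` commutes with `d₁` and `e² ≠ 1`, so `e² = z` (`four`); `z` is the only involution of `R`, so
`D ∩ R = ∅`. CLAIM `D = D₀`. Let `Δ = R ∪ D₀ = closure {d₁, d₂}` and `N ≤ P` maximal with `Δ ≤ N`, `D ∩ N ⊆ Δ`. If `N < P`
then `N < P ⊓ 𝐍 N` (`lt_inf_normalizer_of_lt`), so some `d ∈ D \ Δ` normalizes `N`, permutes `D ∩ N = D₀` and so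
normalizes `R` (`r = d₁ d₂`). `d d₁ d = r ^ k d₁`, `(d d₁) ² = r ^ k`; if `k` is odd then `d d₁` has order `2 ^ (n + 1)`,
against maximality. So `k = 2 j` and `u = r ^ (-j) d` commutes with `d₁`. `u² = r ^ (-j) (d r ^ (-j) d) ∈ R` is
centralized and inverted by `d₁`, so `u² = 1` or `z`; `nsq` gives `u² = 1`, i.e. `d` inverts `r ^ j`. Then `d = r ^ j u`
commutes with `r ^ j d₁ ∈ D₀`, so `d ∈ Δ` by `four`: contradiction. Finally `g` permutes the finite set `D = D₀`, so it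
normalizes `R`, and `g e g⁻¹ ∈ R` has order four. -/
theorem dih {X : Type*} [Group X] [Finite X] {P : Subgroup X} (hP : IsPGroup 2 P) {D : Set X} {z : X}
    (DP : ∀ d ∈ D, d ∈ P) (two : ∀ d ∈ D, d * d = 1) (oD : (1 : X) ∉ D) (zD : z ∉ D) (z1 : z ≠ 1)
    (cj : ∀ d ∈ D, ∀ g ∈ P, g * d * g⁻¹ ∈ D)
    (four : ∀ d ∈ D, ∀ e ∈ D, d * e = e * d → e = d ∨ e = d * z)
    (nsq : ∀ d ∈ D, ∀ u ∈ P, u * d = d * u → u * u ≠ z) (nc : ∃ d ∈ D, ∃ e ∈ D, d * e ≠ e * d) :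
    ∃ e ∈ closure D, e * e = z ∧ (∀ d ∈ D, d * e * d⁻¹ = e⁻¹) ∧
      ∀ g : X, (∀ d ∈ D, g * d * g⁻¹ ∈ D) → g * e * g⁻¹ = e ∨ g * e * g⁻¹ = e⁻¹ := by
  classical
  have inv : ∀ d ∈ D, d⁻¹ = d := fun d hd => inv_eq_of_mul_eq_one_right (two d hd)
  have ex : ∃ n : ℕ, ∀ a ∈ D, ∀ b ∈ D, (a * b) ^ 2 ^ n = 1 := by
    obtain ⟨n, hn⟩ := IsPGroup.iff_card.1 hP
    refine ⟨n, fun a ha b hb => ?_⟩
    have := pow_card_eq_one' (x := (⟨a * b, mul_mem (DP a ha) (DP b hb)⟩ : P))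
    rw [hn] at this
    exact congrArg Subtype.val this
  obtain ⟨m, hm, d₁, h1, d₂, h2, hr⟩ : ∃ m : ℕ, (∀ a ∈ D, ∀ b ∈ D, (a * b) ^ 2 ^ (m + 2) = 1) ∧
      ∃ a ∈ D, ∃ b ∈ D, (a * b) ^ 2 ^ (m + 1) ≠ 1 := by
    have hs := Nat.find_spec ex
    have h2 : 2 ≤ Nat.find ex := by
      by_contra hlt
      obtain ⟨a, ha, b, hb, hab⟩ := nc
      apply hab
      have h3 : (a * b) * (a * b) = 1 := by
        have := hs a ha b hb
        obtain h | h : Nat.find ex = 0 ∨ Nat.find ex = 1 := by omega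
        · rw [h, pow_zero, pow_one] at this; rw [this, one_mul]
        · rw [h, pow_one, sq] at this; exact this
      have := inv_eq_of_mul_eq_one_right h3
      rw [mul_inv_rev, inv a ha, inv b hb] at this
      exact this.symm
    obtain ⟨m, hm⟩ : ∃ m, Nat.find ex = m + 2 := ⟨Nat.find ex - 2, by omega⟩
    refine ⟨m, hm ▸ hs, ?_⟩
    have := Nat.find_min ex (show m + 1 < Nat.find ex by omega)
    push Not at this
    exact this
  obtain ⟨r, hrd⟩ : ∃ r, r = d₁ * d₂ := ⟨_, rfl⟩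
  have o : orderOf r = 2 ^ (m + 2) := by
    rw [hrd]; exact orderOf_eq_prime_pow hr (hm _ h1 _ h2)
  rw [← hrd] at hr
  have rP : r ∈ P := hrd ▸ mul_mem (DP _ h1) (DP _ h2)
  have hd2 : d₂ = r⁻¹ * d₁ := by
    rw [hrd, mul_inv_rev, inv _ h1, inv _ h2, mul_assoc, two _ h1, mul_one]
  have hs : d₁ * r = r⁻¹ * d₁ := by rw [← hd2, hrd, ← mul_assoc, two _ h1, one_mul]
  have sw := Dh.sw hs
  have D0 : ∀ k : ℤ, r ^ k * d₁ ∈ D := by
    intro k
    rcases Int.even_or_odd' k with ⟨i, rfl | rfl⟩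
    · have := cj _ h1 _ (zpow_mem rP i)
      rwa [mul_assoc, ← zpow_neg, sw, show r ^ i * (r ^ (- -i) * d₁) = r ^ (2 * i) * d₁ by group] at this
    · have := cj _ h2 _ (zpow_mem rP (i + 1))
      rwa [hd2, mul_assoc, mul_assoc, ← zpow_neg, sw,
        show r ^ (i + 1) * (r⁻¹ * (r ^ (- -(i + 1)) * d₁)) = r ^ (2 * i + 1) * d₁ by group] at this
  have e2 : r ^ 2 ^ (m + 1) = r ^ ((2 : ℤ) ^ (m + 1)) := by rw [← zpow_natCast]; simp
  have e3 : r ^ 2 ^ (m + 1) * r ^ 2 ^ (m + 1) = 1 := by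
    rw [← pow_add, show 2 ^ (m + 1) + 2 ^ (m + 1) = 2 ^ (m + 2) by ring, ← o, pow_orderOf_eq_one]
  have e4 : d₁ * r ^ 2 ^ (m + 1) = r ^ 2 ^ (m + 1) * d₁ := by
    have := inv_eq_of_mul_eq_one_right e3
    rw [e2] at this ⊢
    rw [sw, zpow_neg, this]
  have hz : r ^ 2 ^ (m + 1) = z := by
    have h3 := D0 (2 ^ (m + 1))
    rw [← e2] at h3
    rcases four _ h1 _ h3 (by rw [← mul_assoc, e4]) with h | h
    · exact absurd (by simpa using h) hr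
    · rw [← e4] at h; exact mul_left_cancel h
  have DR : ∀ x ∈ D, x ∈ Dh.Δ hs (two _ h1) → ∃ k : ℤ, x = r ^ k * d₁ := by
    rintro x hx ⟨k, rfl | rfl⟩
    · rcases Dh.r1 o (two _ hx) with h | h
      · exact absurd (h ▸ hx) oD
      · exact absurd (hz ▸ h ▸ hx) zD
    · exact ⟨k, rfl⟩
  have m1 : d₁ ∈ Dh.Δ hs (two _ h1) := ⟨0, .inr (by simp)⟩
  have m2 : d₂ ∈ Dh.Δ hs (two _ h1) := ⟨-1, .inr (by rw [hd2]; simp)⟩
  have nR : ∀ g : X, (∃ k : ℤ, g * d₁ * g⁻¹ = r ^ k * d₁) → (∃ k : ℤ, g * d₂ * g⁻¹ = r ^ k * d₁) →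
      ∀ j : ℤ, ∃ t : ℤ, g * r ^ j * g⁻¹ = r ^ t := by
    rintro g ⟨k, hk⟩ ⟨l, hl⟩ j
    refine ⟨(k - l) * j, ?_⟩
    have : g * r * g⁻¹ = r ^ (k - l) := by
      calc g * r * g⁻¹ = (g * d₁ * g⁻¹) * (g * d₂ * g⁻¹) := by rw [hrd]; group
        _ = r ^ k * (d₁ * r ^ l) * d₁ := by rw [hk, hl]; group
        _ = r ^ (k - l) * (d₁ * d₁) := by rw [sw]; group
        _ = _ := by rw [two _ h1, mul_one]
    rw [← conj_zpow, this, zpow_mul]
  have ΔP : Dh.Δ hs (two _ h1) ≤ P := by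
    rintro _ ⟨k, rfl | rfl⟩
    · exact zpow_mem rP k
    · exact mul_mem (zpow_mem rP k) (DP _ h1)
  have key : ∀ x ∈ D, x ∈ Dh.Δ hs (two _ h1) := by
    obtain ⟨N, hN1, hN⟩ := Finite.exists_le_maximal
      (p := fun N : Subgroup X => N ≤ P ∧ ∀ x ∈ D, x ∈ N → x ∈ Dh.Δ hs (two _ h1))
      (a := Dh.Δ hs (two _ h1)) ⟨ΔP, fun _ _ h => h⟩
    by_cases hNP : N = P
    · exact fun x hx => hN.1.2 x hx (hNP ▸ DP x hx)
    exfalso
    have lt := lt_inf_normalizer_of_lt hP (lt_of_le_of_ne hN.1.1 hNP)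
    obtain ⟨d, hd, hdN, hdn⟩ : ∃ d ∈ D, d ∈ P ⊓ 𝐍 N ∧ d ∉ Dh.Δ hs (two _ h1) := by
      by_contra hc
      push Not at hc
      exact lt.not_ge (hN.2 ⟨inf_le_left, hc⟩ lt.le)
    have cN : ∀ x ∈ D, x ∈ Dh.Δ hs (two _ h1) → ∃ k : ℤ, d * x * d⁻¹ = r ^ k * d₁ := fun x hx hx' =>
      DR _ (cj _ hx _ hdN.1) (hN.1.2 _ (cj _ hx _ hdN.1) ((mem_normalizer_iff.1 hdN.2 x).1 (hN1 hx')))
    have nd := nR d (cN _ h1 m1) (cN _ h2 m2)
    obtain ⟨k, hk⟩ := cN _ h1 m1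
    rw [inv _ hd] at hk nd
    rcases Int.even_or_odd' k with ⟨j, rfl | rfl⟩
    · obtain ⟨t, ht⟩ := nd (-j)
      have uc : (r ^ (-j) * d) * d₁ = d₁ * (r ^ (-j) * d) := by
        calc _ = r ^ (-j) * (d * d₁ * d) * d * (d * d)⁻¹ := by group
          _ = (r ^ (- -j) * d₁) * d := by rw [hk, two _ hd]; group
          _ = _ := by rw [← sw]; group
      have uu : (r ^ (-j) * d) * (r ^ (-j) * d) = r ^ (t - j) := by
        calc _ = r ^ (-j) * (d * r ^ (-j) * d) := by group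
          _ = _ := by rw [ht]; group
      have c2 : d₁ * r ^ (t - j) = r ^ (t - j) * d₁ := by
        rw [← uu, ← mul_assoc, ← uc, mul_assoc, ← uc, ← mul_assoc]
      have c3 : r ^ (t - j) * r ^ (t - j) = 1 := by
        rw [sw] at c2
        have := mul_right_cancel c2
        nth_rewrite 1 [← this]; group
      rcases Dh.r1 o c3 with h | h
      · have h5 : r ^ t = r ^ j := by
          calc r ^ t = r ^ (t - j) * r ^ j := by group
            _ = _ := by rw [h, one_mul]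
        have h6 : d * r ^ j * d = r ^ (-j) := by
          rw [← h5, ← ht]
          calc _ = (d * d) * r ^ (-j) * (d * d) := by group
            _ = _ := by rw [two _ hd]; group
        have h7 : (r ^ j * d₁) * d = d * (r ^ j * d₁) := by
          calc _ = r ^ (-j) * (r ^ (2 * j) * d₁) * d := by group
            _ = (d * r ^ j * d) * (d * d₁ * d) * d := by rw [h6, hk]
            _ = d * r ^ j * (d * d) * d₁ * (d * d) := by group
            _ = _ := by rw [two _ hd]; group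
        rcases four _ (D0 j) _ hd h7 with h8 | h8
        · exact hdn ⟨j, .inr h8⟩
        · refine hdn (h8 ▸ mul_mem ⟨j, .inr rfl⟩ ⟨2 ^ (m + 1), .inl ?_⟩)
          rw [← e2, hz]
      · exact nsq _ h1 _ (mul_mem (zpow_mem rP _) hdN.1) uc (by rw [uu, h, hz])
    · have h3 := hm _ hd _ h1
      have h4 : (d * d₁) ^ 2 = r ^ (2 * j + 1) := by
        calc _ = (d * d₁ * d) * d₁ := by rw [sq]; group
          _ = r ^ (2 * j + 1) * (d₁ * d₁) := by rw [hk]; group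
          _ = _ := by rw [two _ h1, mul_one]
      rw [pow_succ' 2 (m + 1), pow_mul, h4, ← zpow_natCast, ← zpow_mul, mul_comm, zpow_mul, zpow_natCast,
        zpow_add, zpow_mul, zpow_ofNat, sq, e3, one_zpow, one_mul, zpow_one] at h3
      exact hr h3
  have e1 : r ^ 2 ^ m = r ^ ((2 : ℤ) ^ m) := by rw [← zpow_natCast]; simp
  have ee : r ^ 2 ^ m * r ^ 2 ^ m = z := by rw [← hz, ← pow_add]; congr 1; ring
  refine ⟨r ^ 2 ^ m, pow_mem (hrd ▸ mul_mem (subset_closure h1) (subset_closure h2)) _, ee, ?_, ?_⟩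
  · intro d hd
    obtain ⟨k, rfl⟩ := DR d hd (key d hd)
    rw [e1, mul_assoc (r ^ k), sw]; group
  · intro g hg
    have := nR g (DR _ (hg _ h1) (key _ (hg _ h1))) (DR _ (hg _ h2) (key _ (hg _ h2)))
    obtain ⟨t, ht⟩ := this (2 ^ m)
    obtain ⟨s, hs'⟩ := this (2 ^ (m + 1))
    rw [← e1] at ht
    rw [← e2] at hs'
    rw [ht]
    apply Dh.r2 o
    have h5 : r ^ t * r ^ t = r ^ s := by rw [← ht, ← hs', hz, ← ee]; group
    have h6 : r ^ s * r ^ s = 1 := by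
      rw [← hs']
      calc _ = g * (r ^ 2 ^ (m + 1) * r ^ 2 ^ (m + 1)) * g⁻¹ := by simp only [mul_assoc, inv_mul_cancel_left]
        _ = 1 := by rw [e3]; group
    rcases Dh.r1 o h6 with h | h
    · rw [h] at hs'
      exact absurd (by simpa using hs') hr
    · rw [h5, h]

end CL.FA
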