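import Cfsg.Agent.FGS.FA.Defs

/-!
# Anticentral elements: fixed elements centralize Sylow subgroups
-/

set_option autoImplicit false
set_option linter.unusedSectionVars false
open Cfsg Subgroup CL.Th CL.MSS CL.B2

namespace CL.FA

variable {X : Type*} [Group X] [Finite X] {a k n z : X} {A G K M R S : Subgroup X}

namespace ECx

variable {p : ℕ} [Fact p.Prime] {P : Subgroup X}

theorem back (hP : SylIn p P M) {y : X} (hy : y ∈ 𝐍 M) : ∃ m ∈ M, (m * y) •ᶜ P = P := by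
  obtain ⟨m, hm, e⟩ := (hP.cj_of_mem_normalizer hy).exists_conj hP
  exact ⟨m, hm, by rw [cj_mul, e]⟩

theorem row (hP : SylIn p P M) (ha : a ∈ 𝐍 M) {g : X} (hg : g ∈ M) :
    {x | x ∈ M ∧ x * a ∈ 𝐍 (g •ᶜ P)}.ncard = Nat.card (M ⊓ 𝐍 P : Subgroup X) := by
  obtain ⟨m, hm, e⟩ := back (hP.cj_of_mem hg) ha
  rw [← mem_normalizer_iff_cj] at e
  have : {x | x ∈ M ∧ x * a ∈ 𝐍 (g •ᶜ P)} = (fun x => x * m) '' ((M ⊓ 𝐍 (g •ᶜ P) : Subgroup X) : Set X) := by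
    ext x
    constructor
    · rintro ⟨h1, h2⟩
      refine ⟨x * m⁻¹, ⟨M.mul_mem h1 (M.inv_mem hm), ?_⟩, by simp⟩
      have := mul_mem h2 (inv_mem e)
      rwa [show x * a * (m * a)⁻¹ = x * m⁻¹ by group] at this
    · rintro ⟨x, ⟨h1, h2⟩, rfl⟩
      exact ⟨M.mul_mem h1 hm, by rw [mul_assoc]; exact mul_mem h2 e⟩
  rw [this, Set.ncard_image_of_injective _ (mul_left_injective m), ← card_cj g (M ⊓ 𝐍 P), cj_inf, cj_eq_of_mem hg,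
    cj_normalizer]
  rfl

theorem col (hP : SylIn p P M) {y : X} (hy : y ∈ 𝐍 M) (t : X) :
    {g | g ∈ M ∧ t ∈ 𝐍 (g •ᶜ P)}.ncard ≤ {g | g ∈ M ∧ y * t * y⁻¹ ∈ 𝐍 (g •ᶜ P)}.ncard := by
  obtain ⟨m, hm, e⟩ := back hP hy
  refine Set.ncard_le_ncard_of_injOn (fun g => y * g * (m * y)⁻¹) ?_ (fun g _ g' _ e => by simpa using e) (Set.toFinite _)
  rintro g ⟨h1, h2⟩
  refine ⟨?_, ?_⟩
  · have := M.mul_mem ((mem_normalizer_iff.1 hy g).1 h1) (M.inv_mem hm)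
    rwa [show y * g * y⁻¹ * m⁻¹ = y * g * (m * y)⁻¹ by group] at this
  · show y * t * y⁻¹ ∈ 𝐍 ((y * g * (m * y)⁻¹) •ᶜ P)
    rw [cj_mul, ← cj_eq_iff.1 e, cj_mul, ← cj_normalizer]
    exact conj_mem_cj h2

theorem cnt (ac : Ac a A G) (hM : M ≤ G) (AM : A ≤ 𝐍 M) (hP : SylIn p P M) (hk : k ∈ M) :
    {g | g ∈ M ∧ k * a ∈ 𝐍 (g •ᶜ P)}.ncard = Nat.card (M ⊓ 𝐍 P : Subgroup X) := by
  classical
  have := Fintype.ofFinite X
  have c : ∀ x ∈ M, {g | g ∈ M ∧ x * a ∈ 𝐍 (g •ᶜ P)}.ncard = {g | g ∈ M ∧ a ∈ 𝐍 (g •ᶜ P)}.ncard := fun x hx => by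
    obtain ⟨y, hy, e⟩ := ac.cj M hM AM x hx
    have hy' : y ∈ 𝐍 M := sup_le le_normalizer AM hy
    apply le_antisymm
    · have := col hP (inv_mem hy') (x * a)
      rwa [← e, show y⁻¹ * (y * a * y⁻¹) * y⁻¹⁻¹ = a by group, e] at this
    · rw [← e]
      exact col hP hy' a
  have := Finset.card_mul_eq_card_mul (s := Finset.univ.filter (· ∈ M)) (t := Finset.univ.filter (· ∈ M))
    (fun x g => x * a ∈ 𝐍 (g •ᶜ P)) (m := {g | g ∈ M ∧ a ∈ 𝐍 (g •ᶜ P)}.ncard) (n := Nat.card (M ⊓ 𝐍 P : Subgroup X))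
    (fun x hx => by
      rw [← c x (by simpa using hx), ← Set.ncard_coe_finset]
      congr 1
      ext g
      simp only [Finset.mem_coe, Finset.mem_bipartiteAbove, Finset.mem_filter, Finset.mem_univ, true_and,
        Set.mem_ofPred_eq])
    (fun g hg => by
      rw [← row hP (AM ac.mem) (by simpa using hg : g ∈ M), ← Set.ncard_coe_finset]
      congr 1
      ext x
      simp only [Finset.mem_coe, Finset.mem_bipartiteBelow, Finset.mem_filter, Finset.mem_univ, true_and,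
        Set.mem_ofPred_eq])
  rw [c k hk]
  exact Nat.eq_of_mul_eq_mul_left (Finset.card_pos.2 ⟨1, by simp⟩) this

end ECx

open ECx

/-- Proof: `M ⊔ A` acts on `Ω = {P | SylIn p P M}`, `M` transitively. Count pairs `(x, P)`, `x ∈ M`, `x a ∈ 𝐍 P`: for each
`P` there are `|M ⊓ 𝐍 P|` such `x` (a coset), so there are `|Ω| |M ⊓ 𝐍 P| = |M|` pairs. All `x a` are conjugate to `a`
in `M ⊔ A` (`ac.cj M`), so they fix the same number `r` of points, and `|M| r = |M|`. -/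
theorem Ac.uniq (ac : Ac a A G) (hM : M ≤ G) (AM : A ≤ 𝐍 M) (hk : k ∈ M) (p : ℕ) [Fact p.Prime] :
    ∃ P, SylIn p P M ∧ k * a ∈ 𝐍 P ∧ ∀ P', SylIn p P' M → k * a ∈ 𝐍 P' → P' = P := by
  obtain ⟨P, hP⟩ := exists_sylIn p M
  have c := cnt ac hM AM hP hk
  obtain ⟨g, hg, h⟩ : {g | g ∈ M ∧ k * a ∈ 𝐍 (g •ᶜ P)}.Nonempty :=
    Set.nonempty_of_ncard_ne_zero (by rw [c]; exact Nat.card_pos.ne')
  refine ⟨g •ᶜ P, hP.cj_of_mem hg, h, fun P' hP' h' => ?_⟩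
  obtain ⟨g', hg', rfl⟩ := hP.exists_conj hP'
  have sub : (fun x => g * x) '' ((M ⊓ 𝐍 P : Subgroup X) : Set X) ⊆ {g | g ∈ M ∧ k * a ∈ 𝐍 (g •ᶜ P)} := by
    rintro _ ⟨x, ⟨h1, h2⟩, rfl⟩
    refine ⟨M.mul_mem hg h1, ?_⟩
    rwa [cj_mul, cj_eq_of_mem_normalizer h2]
  have := Set.eq_of_subset_of_ncard_le sub (by
    rw [c, Set.ncard_image_of_injective _ (mul_right_injective g)]
    rfl)
  obtain ⟨x, ⟨-, h2⟩, rfl⟩ := this.symm.subset (⟨hg', h'⟩ : g' ∈ {g | g ∈ M ∧ k * a ∈ 𝐍 (g •ᶜ P)})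
  rw [cj_mul, cj_eq_of_mem_normalizer h2]

theorem Ac.sylc (ac : Ac a A G) (hM : M ≤ G) (AM : A ≤ 𝐍 M) (hR : IsPGroup 2 R) (RM : R ≤ M) (MR : M ≤ 𝐍 R)
    (zR : z ∈ R) (hk : k ∈ M) (c : k * a * z = z * (k * a)) (p : ℕ) [Fact p.Prime] (p2 : p ≠ 2) :
    ∃ P, SylIn p P M ∧ P ≤ 𝐜 z := by
  obtain ⟨P, hP, h1, h2⟩ := ac.uniq hM AM hk p
  have e : z •ᶜ P = P := h2 _ (hP.cj_of_mem (RM zR)) (by
    rw [mem_normalizer_iff_cj, ← cj_mul, c, cj_mul, cj_eq_of_mem_normalizer h1])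
  refine ⟨P, hP, fun x hx => ?_⟩
  have m1 : z * x * z⁻¹ * x⁻¹ ∈ P := P.mul_mem (e ▸ conj_mem_cj hx) (P.inv_mem hx)
  have m2 : z * x * z⁻¹ * x⁻¹ ∈ R := by
    rw [mul_assoc, mul_assoc, ← mul_assoc x]
    exact R.mul_mem zR ((mem_normalizer_iff.1 (MR (hP.le hx)) _).1 (R.inv_mem zR))
  have := Subgroup.disjoint_def.1 (IsPGroup.disjoint_of_ne p 2 p2 P R hP.pgroup hR) m1 m2
  rw [mem_centralizer_singleton_iff]
  rw [mul_inv_eq_one, mul_inv_eq_iff_eq_mul] at this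
  exact this.symm

/-- Proof: for an odd prime `p` take `P` from `uniq`; `z •ᶜ P` is again `k a`-invariant, so `z ∈ 𝐍 P`, and
`⁅z, P⁆ ≤ R ⊓ P = ⊥`. So `P ≤ M ⊓ 𝐜 z` and `p` does not divide the index. -/
theorem Ac.ec (ac : Ac a A G) (hM : M ≤ G) (AM : A ≤ 𝐍 M) (hR : IsPGroup 2 R) (RM : R ≤ M) (MR : M ≤ 𝐍 R)
    (zR : z ∈ R) (hk : k ∈ M) (c : k * a * z = z * (k * a)) : ∃ n, (𝐜 z).relIndex M = 2 ^ n := by
  refine ⟨_, Nat.eq_prime_pow_of_unique_prime_dvd index_ne_zero_of_finite fun {p} hp hd => ?_⟩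
  by_contra p2
  have := Fact.mk hp
  obtain ⟨P, hP, le⟩ := ac.sylc hM AM hR RM MR zR hk c p p2
  exact hP.not_dvd_relIndex (hd.trans (relIndex_dvd_of_le_left M le))

/-- Proof: `|K : C_K(z)| = |K C_M(z) : C_M(z)|` divides `|M : C_M(z)| = 2 ^ n` (`ec`). -/
theorem Ac.ec_odd (ac : Ac a A G) (hM : M ≤ G) (AM : A ≤ 𝐍 M) (hR : IsPGroup 2 R) (RM : R ≤ M) (MR : M ≤ 𝐍 R)
    (zR : z ∈ R) (hk : k ∈ M) (c : k * a * z = z * (k * a)) (KM : K ≤ M) (MK : M ≤ 𝐍 K)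
    (od : Odd ((𝐜 z).relIndex K)) : K ≤ 𝐜 z := by
  rw [← relIndex_eq_one]
  by_contra n1
  obtain ⟨p, hp, hd⟩ := Nat.exists_prime_and_dvd n1
  have := Fact.mk hp
  obtain ⟨P, hP, le⟩ := ac.sylc hM AM hR RM MR zR hk c p (by
    rintro rfl
    exact od.not_two_dvd_nat hd)
  exact (hP.inf_normal_of_le MK KM).not_dvd_relIndex (hd.trans (relIndex_dvd_of_le_left K (inf_le_left.trans le)))

/-- Proof: `ec_odd` with `M = K = G ⊓ 𝐍 S`, `R = S`; the index divides the odd number `|M : S|`. -/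
theorem Ac.ec_syl (ac : Ac a A G) (nrm : A ≤ 𝐍 G) (syl : SylIn 2 S G) (AS : A ≤ 𝐍 S) (zS : z ∈ S) (cz : S ≤ 𝐜 z)
    (hn : n ∈ G ⊓ 𝐍 S) (c : n * a * z = z * (n * a)) : G ⊓ 𝐍 S ≤ 𝐜 z := by
  have SM : S ≤ G ⊓ 𝐍 S := le_inf syl.le le_normalizer
  refine ac.ec_odd inf_le_left (fun b hb => ?_) syl.pgroup SM inf_le_right zS hn c le_rfl le_normalizer ?_
  · rw [mem_normalizer_iff_cj, cj_inf, cj_normalizer, cj_eq_of_mem_normalizer (nrm hb), cj_eq_of_mem_normalizer (AS hb)]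
  · rw [← Nat.not_even_iff_odd, even_iff_two_dvd]
    exact fun hd => (syl.of_le SM inf_le_left).not_dvd_relIndex (hd.trans (relIndex_dvd_of_le_left _ cz))

end CL.FA
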