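import Cfsg.Agent.FGS.FA.NT1

/-!
# Anticentral elements, module lemma: the two cases
-/

set_option autoImplicit false
set_option linter.unusedSectionVars false
open Cfsg Subgroup CL.MSS CL.B2 CL.FZ.Mo

namespace CL.FA

variable {W : Type*} [CommGroup W] [Finite W] {F S : Subgroup (MulAut W)} {f f' t : MulAut W}

namespace NT3

/-- `⟨f, g⟩` for commuting `f`, `g` -/
def e2 {G : Type*} [Group G] {f g : G} (c : Commute f g) : Subgroup G where
  carrier := {e | ∃ i j : ℤ, f ^ i * g ^ j = e}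
  one_mem' := ⟨0, 0, by simp⟩
  mul_mem' := by
    rintro _ _ ⟨i, j, rfl⟩ ⟨l, m, rfl⟩
    exact ⟨i + l, j + m, by rw [zpow_add, zpow_add, (c.zpow_zpow l j).mul_mul_mul_comm]⟩
  inv_mem' := by
    rintro _ ⟨i, j, rfl⟩
    exact ⟨-i, -j, by rw [mul_inv_rev, ← zpow_neg, ← zpow_neg, (c.zpow_zpow _ _).eq]⟩

/-- A free action on the nontrivial elements of an invariant subgroup. -/
theorem card_dvd_free {E : Subgroup (MulAut W)} {U : Subgroup W} (hU : ∀ g ∈ E, Iv g U)
    (fr : ∀ g ∈ E, ∀ u ∈ U, g u = u → u ≠ 1 → g = 1) : Nat.card E ∣ Nat.card U - 1 := by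
  classical
  let _ : MulAction E {u : U // u ≠ 1} :=
    { smul := fun g u => ⟨⟨g.1 u.1.1, hU g.1 g.2 _ u.1.2⟩, fun h =>
        u.2 (Subtype.ext ((map_eq_one_iff g.1 g.1.injective).1 (congrArg Subtype.val h)))⟩
      one_smul := fun _ => rfl
      mul_smul := fun _ _ _ => rfl }
  have e := Nat.card_congr (MulAction.selfEquivOrbitsQuotientProd (G := E) (X := {u : U // u ≠ 1}) fun u =>
    eq_bot_iff.2 fun g hg => mem_bot.2 (Subtype.ext (fr g.1 g.2 u.1.1 u.1.2
      (congrArg (fun v : {u : U // u ≠ 1} => v.1.1) (MulAction.mem_stabilizer_iff.1 hg))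
      fun h => u.2 (Subtype.ext h))))
  have := Fintype.ofFinite U
  have e1 : Nat.card {u : U // u ≠ 1} = Nat.card U - 1 := by
    rw [Nat.card_eq_fintype_card, Nat.card_eq_fintype_card, Fintype.card_subtype_compl, Fintype.card_subtype_eq]
  rw [← e1, e, Nat.card_prod]
  exact Dvd.intro_left _ rfl

/-- The elements of order `p` of a nilpotent subgroup generate a `p`-group. -/
theorem pg_closure {G : Type*} [Group G] [Finite G] {K : Subgroup G} (hK : Group.IsNilpotent K) {p : ℕ} (hp : p.Prime)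
    {J : Set G} (hJ : ∀ f ∈ J, f ∈ K ∧ orderOf f = p) : IsPGroup p (closure J) := by
  have := Fact.mk hp
  let P : Sylow p K := default
  have hn : (P : Subgroup K).Normal := inferInstance
  have := Sylow.unique_of_normal P hn
  refine (P.isPGroup'.map K.subtype).to_le ((closure_le _).2 fun f hf => ?_)
  obtain ⟨h1, h2⟩ := hJ f hf
  obtain ⟨Q, hQ⟩ := (IsPGroup.of_card (G := zpowers (⟨f, h1⟩ : K)) (p := p) (n := 1) (by
    rw [Nat.card_zpowers, pow_one, ← h2, orderOf_mk])).exists_le_sylow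
  exact ⟨⟨f, h1⟩, Subsingleton.elim Q P ▸ hQ (mem_zpowers _), rfl⟩

end NT3

open NT3 MB

/-- Proof: `E = ⟨f, f'⟩` is an abelian `p`-group inverted by `t`. For `1 ≠ e ∈ E`: `cm e ≤ cm f` (`MB.cm_le_of_inv`, `b1`:
`cm t ≤ cm f`), both of order 16, so `e` has no fixed point `≠ 1` on `cm f`. All `E`-orbits on the 15 points are regular,
`|E| ∣ 15`, so `|E| = p` and `E = zpowers f`. -/
theorem cyc (k : Hm F S) (ht : Tt S t) (fF : f ∈ F) (fF' : f' ∈ F) (pf : (orderOf f).Prime)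
    (o : orderOf f' = orderOf f) (e : t * f * t⁻¹ = f⁻¹) (e' : t * f' * t⁻¹ = f'⁻¹) (c : f * f' = f' * f) :
    f' ∈ zpowers f := by
  by_contra hn
  have := Fact.mk pf
  have cc : Commute f f' := c
  have f1 : f ≠ 1 := fun h => pf.ne_one (by rw [h, orderOf_one])
  have hE : ∀ g ∈ e2 cc, g ∈ F ∧ t * g * t⁻¹ = g⁻¹ ∧ g * f * g⁻¹ = f ∧ g ^ orderOf f = 1 := by
    rintro _ ⟨i, j, rfl⟩
    refine ⟨F.mul_mem (F.zpow_mem fF i) (F.zpow_mem fF' j), ?_, ?_, ?_⟩
    · calc t * (f ^ i * f' ^ j) * t⁻¹ = (t * f * t⁻¹) ^ i * (t * f' * t⁻¹) ^ j := by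
            rw [conj_zpow, conj_zpow]; group
        _ = _ := by rw [e, e', inv_zpow, inv_zpow, ← mul_inv_rev, (cc.zpow_zpow i j).eq]
    · rw [mul_inv_eq_iff_eq_mul]
      exact (((Commute.refl f).zpow_right i).mul_right (cc.zpow_right j)).eq.symm
    · rw [(cc.zpow_zpow i j).mul_pow, ← zpow_natCast, ← zpow_natCast, ← zpow_mul, ← zpow_mul, mul_comm i, mul_comm j,
        zpow_mul, zpow_mul, zpow_natCast, zpow_natCast, pow_orderOf_eq_one, ← o, pow_orderOf_eq_one]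
      simp
  obtain ⟨h16, -, ht2⟩ := b1 k ht fF f1 e
  have hd := card_dvd_free (E := e2 cc) (U := cm f) (fun g hg => iv_cm' (.inl (hE g hg).2.2.1)) fun g hg u hu h u1 => by
    by_contra g1
    obtain ⟨gF, eg, cg, -⟩ := hE g hg
    have h1 : cm g ≤ cm f := cm_le_of_inv (k.odd_ord gF) ht.sq eg ht2 (iv_cm' (.inl cg))
    have h2 : cm g = cm f := eq_of_le_of_card_ge h1 (by rw [h16, (b1 k ht gF g1 eg).1])
    have h3 : u ∈ fx g ⊓ cm g := ⟨h, h2 ▸ hu⟩
    rw [fx_inf_cm k.two (k.odd_ord gF), mem_bot] at h3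
    exact u1 h3
  have hP : IsPGroup (orderOf f) (e2 cc) := fun g => ⟨1, Subtype.ext (by simpa using (hE g.1 g.2).2.2.2)⟩
  obtain ⟨n, hn2⟩ := IsPGroup.iff_card.1 hP
  have hle : zpowers f ≤ e2 cc := zpowers_le.2 ⟨1, 0, by simp⟩
  have hlt : orderOf f < Nat.card (e2 cc) := by
    rw [← Nat.card_zpowers]
    by_contra h
    exact hn ((eq_of_le_of_card_ge hle (not_lt.1 h)).ge ⟨0, 1, by simp⟩)
  rw [hn2] at hlt hd
  have n2 : 2 ≤ n := by
    by_contra h
    have : n ≤ 1 := by omega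
    have := Nat.pow_le_pow_right pf.pos this
    rw [pow_one] at this
    omega
  have h15 : orderOf f ^ 2 ∣ 15 := by
    have := (pow_dvd_pow _ n2).trans hd
    rwa [h16] at this
  have h2 := pf.two_le
  have h3 := Nat.le_of_dvd (by norm_num) h15
  have h4 : orderOf f ≤ 3 := by nlinarith
  generalize orderOf f = p at h15 h2 h4
  interval_cases p <;> omega

/-- Proof: `MB.exists_inv` gives a prime `p` with `J = {f ∈ F | orderOf f = p, t f t⁻¹ = f⁻¹} ≠ ∅`. `Q = closure J` is a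
`p`-group (`F` is nilpotent), normalized by `t`; `Z = Q ⊓ 𝐂 Q ≠ ⊥`. For `s ≠ t`, `Q` centralizes `s` (`Hm.cent`) and `cm s`
(`l1`). If `1 ≠ c ∈ Z` centralizes `t`: were `cm t ≤ fx c`, then `cm f ≤ fx c` for `f ∈ J` (`MB.cm_le_of_inv`), so
`cm q ≤ fx c` for `q ∈ Q` (`cm_mul`, `cm_inv`), `cm c ≤ fx c ⊓ cm c = ⊥`; this is the left case. Otherwise take `c ∈ Z` of
order `p`; `c (t c t⁻¹) ∈ Z` centralizes `t`, so `t` inverts `c`, and `cyc` gives the right case with `f = c`. -/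
theorem split (k : Hm F S) (ht : Tt S t) :
    (∃ c ∈ F, c * t = t * c ∧ (∀ s, Tt S s → s ≠ t → c * s = s * c ∧ cm s ≤ fx c) ∧ ¬ cm t ≤ fx c) ∨
      ∃ f ∈ F, (orderOf f).Prime ∧ t * f * t⁻¹ = f⁻¹ ∧
        ∀ f' ∈ F, orderOf f' = orderOf f → t * f' * t⁻¹ = f'⁻¹ → f' ∈ zpowers f := by
  obtain ⟨x, xF, px, ex⟩ := exists_inv k ht
  have := Fact.mk px
  let J : Set (MulAut W) := {g | g ∈ F ∧ orderOf g = orderOf x ∧ t * g * t⁻¹ = g⁻¹}
  have hQ : IsPGroup (orderOf x) (closure J) := pg_closure k.nil px fun g hg => ⟨hg.1, hg.2.1⟩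
  have QF : closure J ≤ F := (closure_le _).2 fun g hg => hg.1
  have tQ : ∀ q ∈ closure J, t * q * t⁻¹ ∈ closure J := fun q hq => by
    induction hq using closure_induction with
    | mem g hg => rw [hg.2.2]; exact inv_mem (subset_closure hg)
    | one => simp
    | mul a b _ _ ha hb => simpa [mul_assoc] using mul_mem ha hb
    | inv a _ ha => simpa [mul_assoc] using inv_mem ha
  have tt : ∀ g, t * (t * g * t⁻¹) * t⁻¹ = g := fun g => by
    calc t * (t * g * t⁻¹) * t⁻¹ = (t * t) * g * (t * t)⁻¹ := by group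
      _ = g := by rw [ht.sq]; group
  have hs : ∀ q ∈ closure J, ∀ s, Tt S s → s ≠ t → q * s = s * q ∧ cm s ≤ fx q := fun q hq s hs ne => by
    have h1 : closure J ≤ centralizer {s} ⊓ stb (cm s) := (closure_le _).2 fun g hg =>
      ⟨mem_centralizer_singleton_iff.2 (k.cent ht hs (k.comm ht hs) ne.symm hg.1 hg.2.2).symm,
        fun u hu => l1 k ht hs ne hg.1 hg.2.2 hu⟩
    exact ⟨mem_centralizer_singleton_iff.1 (h1 hq).1, fun u hu => (h1 hq).2 u hu⟩
  by_cases hA : ∃ c ∈ closure J, c ≠ 1 ∧ (∀ q ∈ closure J, c * q = q * c) ∧ c * t = t * c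
  · obtain ⟨c, cQ, c1, cz, ct⟩ := hA
    refine .inl ⟨c, QF cQ, ct, hs c cQ, fun h => c1 (eq_one_of_cm (eq_bot_iff.2 ?_))⟩
    have h1 : ∀ q ∈ closure J, cm q ≤ fx c := fun q hq => by
      induction hq using closure_induction with
      | mem g hg =>
        exact cm_le_of_inv (k.odd_ord hg.1) ht.sq hg.2.2 h
          (iv_fx' (.inl (mul_inv_eq_iff_eq_mul.2 (cz g (subset_closure hg)).symm)))
      | one => rw [cm_one]; exact bot_le
      | mul a b _ _ ha hb => exact (cm_mul a b).trans (sup_le ha hb)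
      | inv a _ ha => rwa [cm_inv]
    rw [← fx_inf_cm k.two (k.odd_ord (QF cQ))]
    exact le_inf (h1 c cQ) le_rfl
  · have xQ : x ∈ closure J := subset_closure ⟨xF, rfl, ex⟩
    have : Nontrivial (closure J) := ⟨⟨⟨x, xQ⟩, 1, fun h => px.ne_one (by
      rw [show x = 1 from congrArg Subtype.val h, orderOf_one])⟩⟩
    have := hQ.center_nontrivial
    have hZ : IsPGroup (orderOf x) (center (closure J)) := hQ.to_subgroup _
    obtain ⟨n, n0, hn⟩ := hZ.nontrivial_iff_card.1 this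
    obtain ⟨z, hz⟩ := exists_prime_orderOf_dvd_card' (G := center (closure J)) (orderOf x)
      (by rw [hn]; exact dvd_pow_self _ n0.ne')
    have cQ : z.1.1 ∈ closure J := z.1.2
    have cz : ∀ q ∈ closure J, z.1.1 * q = q * z.1.1 := fun q hq =>
      (congrArg Subtype.val (mem_center_iff.1 z.2 ⟨q, hq⟩)).symm
    have co : orderOf z.1.1 = orderOf x := by rw [orderOf_coe, orderOf_coe, hz]
    generalize z.1.1 = c at cQ cz co
    have dz : ∀ q ∈ closure J, t * c * t⁻¹ * q = q * (t * c * t⁻¹) := fun q hq => by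
      calc t * c * t⁻¹ * q = t * c * t⁻¹ * (t * (t * q * t⁻¹) * t⁻¹) := by rw [tt]
        _ = t * (c * (t * q * t⁻¹)) * t⁻¹ := by group
        _ = t * (t * q * t⁻¹) * t⁻¹ * (t * c * t⁻¹) := by rw [cz _ (tQ q hq)]; group
        _ = _ := by rw [tt]
    have ec : t * c * t⁻¹ = c⁻¹ := by
      by_contra h
      refine hA ⟨c * (t * c * t⁻¹), mul_mem cQ (tQ c cQ), fun h1 => h (eq_inv_of_mul_eq_one_right h1), fun q hq => ?_, ?_⟩
      · rw [mul_assoc, dz q hq, ← mul_assoc, cz q hq, mul_assoc]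
      · rw [eq_comm, ← mul_inv_eq_iff_eq_mul]
        calc t * (c * (t * c * t⁻¹)) * t⁻¹ = t * c * t⁻¹ * (t * (t * c * t⁻¹) * t⁻¹) := by group
          _ = _ := by rw [tt, dz c cQ]
    refine .inr ⟨c, QF cQ, co ▸ px, ec, fun g gF og eg => ?_⟩
    exact cyc k ht (QF cQ) gF (co ▸ px) og ec eg (cz g (subset_closure ⟨gF, og.trans co, eg⟩))

end CL.FA
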