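import Cfsg.Agent.FGS.FA.Defs

/-!
# Anticentral elements: cycle products
-/

set_option autoImplicit false
set_option linter.unusedSectionVars false
open Subgroup

namespace CL.FA

variable {X : Type*} [Group X] [Finite X] {a e e' w x y β : X} {m : ℕ}

/-- Proof: induction, `(x a) ^ (j + 1) = x k a ^ (j + 1)` with `k ∈ K` for `j + 1 ≤ m`:
`(x a) ^ (j + 2) = x k (a ^ (j + 1) x a ^ (-(j + 1))) a ^ (j + 2)`. -/
theorem cp {K : Subgroup X} (m0 : 0 < m) (h : ∀ i, 0 < i → i < m → a ^ i * x * (a ^ i)⁻¹ ∈ K) :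
    ∃ k ∈ K, (x * a) ^ m = x * k * a ^ m := by
  obtain ⟨j, rfl⟩ := Nat.exists_eq_succ_of_ne_zero m0.ne'
  clear m0
  induction j with
  | zero => exact ⟨1, K.one_mem, by simp⟩
  | succ j ih =>
    obtain ⟨k, hk, e⟩ := ih fun i h0 h1 => h i h0 (h1.trans (Nat.lt_succ_self _))
    refine ⟨k * (a ^ (j + 1) * x * (a ^ (j + 1))⁻¹), K.mul_mem hk (h _ j.succ_pos (Nat.lt_succ_self _)), ?_⟩
    rw [pow_succ (x * a), e, pow_succ a (j + 1)]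
    generalize a ^ (j + 1) = c
    group

/-- The orbit product `z = ∏_{i < m} β ^ i w β ^ (-i)` (`Finset.noncommProd` over `range m`, or a product in the
commutative group generated by the factors): `β` permutes the factors cyclically; `z = w r` where `r` is the product of the
factors with `0 < i < m`. -/
theorem op (m0 : 0 < m) (cm : ∀ i j : ℕ, Commute (β ^ i * w * (β ^ i)⁻¹) (β ^ j * w * (β ^ j)⁻¹))
    (fix : β ^ m * w * (β ^ m)⁻¹ = w) :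
    ∃ z, β * z = z * β ∧ (∀ H : Subgroup X, (∀ i : ℕ, β ^ i * w * (β ^ i)⁻¹ ∈ H) → z ∈ H) ∧
      ∀ n : X, (∀ i, 0 < i → i < m → Commute n (β ^ i * w * (β ^ i)⁻¹)) → n * z = z * n → n * w = w * n := by
  obtain ⟨k, hk, e⟩ := cp (a := β) (x := w)
    (K := closure {u | ∃ i, 0 < i ∧ i < m ∧ β ^ i * w * (β ^ i)⁻¹ = u}) m0
    fun i h0 h1 => subset_closure ⟨i, h0, h1, rfl⟩
  have hc : ∀ n : X, (∀ i, 0 < i → i < m → Commute n (β ^ i * w * (β ^ i)⁻¹)) → k * n = n * k :=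
    fun n hn => mem_centralizer_singleton_iff.1 ((closure_le (centralizer {n})).2 (by
      rintro _ ⟨i, h0, h1, rfl⟩
      exact mem_centralizer_singleton_iff.2 (hn i h0 h1).symm.eq) hk)
  refine ⟨w * k, ?_, fun H hH => H.mul_mem (by simpa using hH 0) ((closure_le H).2 ?_ hk),
    fun n hn h => ?_⟩
  · have h1 := hc w fun i _ _ => by simpa using cm 0 i
    have h2 : β * (w * β) ^ m * β⁻¹ = w⁻¹ * (w * β) ^ m * w := by
      rw [← conj_pow, show w⁻¹ * (w * β) ^ m * w = w⁻¹ * (w * β) ^ m * w⁻¹⁻¹ by rw [inv_inv], ← conj_pow]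
      congr 1
      group
    rw [e] at h2
    calc β * (w * k) = β * (w * k * β ^ m) * β⁻¹ * (β ^ m)⁻¹ * β := by group
      _ = k * (β ^ m * w * (β ^ m)⁻¹) * β := by rw [h2]; group
      _ = w * k * β := by rw [fix, h1]
  · rintro _ ⟨i, -, -, rfl⟩
    exact hH i
  · rw [mul_assoc, hc n hn, ← mul_assoc, ← mul_assoc] at h
    exact mul_right_cancel h

namespace Wr
variable {G Ω : Type*} [Group G] [MulAction G Ω] [Finite G] [Finite Ω] {Φ T : Set Ω}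

theorem pw {c : G} (hc : ∀ φ ∈ Φ, c • φ ∈ Φ) (i : ℕ) : ∀ φ ∈ Φ, c ^ i • φ ∈ Φ := by
  induction i with
  | zero => simp
  | succ i ih => exact fun φ h => by rw [pow_succ', mul_smul]; exact hc _ (ih φ h)

theorem step {c d y : G} (e : y * d * y⁻¹ = c) (hy : ∀ φ ∈ Φ, y • φ ∈ Φ) (hc : ∀ φ ∈ Φ, c • φ ∈ Φ)
    (h : ∀ φ ∈ Φ, c • φ ∉ T → d • φ = c • φ) (TΦ : T ⊆ Φ) (ex : ∃ φ ∈ T, d ^ m • φ = φ) :
    ∃ φ ∈ T, c ^ m • φ = φ := by
  by_contra no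
  push Not at no
  have h1 : {φ | φ ∈ Φ ∧ c ^ m • φ = φ} ⊆ {φ | φ ∈ Φ ∧ d ^ m • φ = φ} := fun φ hφ => by
    have : ∀ i, d ^ i • φ = c ^ i • φ := fun i => by
      induction i with
      | zero => simp
      | succ i ih =>
        rw [pow_succ', pow_succ', mul_smul, mul_smul, ih]
        refine h _ (pw hc i φ hφ.1) fun hT => no _ hT ?_
        rw [← mul_smul c, ← pow_succ', ← mul_smul, pow_mul_comm, mul_smul, hφ.2]
    exact ⟨hφ.1, (this m).trans hφ.2⟩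
  have h2 := Set.eq_of_subset_of_ncard_le h1 (Set.ncard_le_ncard_of_injOn (fun φ => y • φ)
    (fun φ hφ => ⟨hy φ hφ.1, by rw [← e, conj_pow, mul_smul, inv_smul_smul, mul_smul, hφ.2]⟩)
    (MulAction.injective y).injOn)
  obtain ⟨φ, hφ, e1⟩ := ex
  exact no φ hφ (h2.ge ⟨TΦ hφ, e1⟩).2

theorem wr {a x y : G} (e : y * a * y⁻¹ = x * a) (hy : ∀ φ ∈ Φ, y • φ ∈ Φ) (ha : ∀ φ ∈ Φ, a • φ ∈ Φ)
    (hx' : ∀ φ ∈ Φ, x • φ ∈ Φ) (hx : ∀ φ ∈ Φ, φ ∉ T → x • φ = φ) (TΦ : T ⊆ Φ) (m0 : 0 < m)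
    (disj : ∀ i, 0 < i → i < m → ∀ φ ∈ T, a ^ i • φ ∉ T) :
    (∃ φ ∈ T, a ^ m • φ = φ) ↔ ∃ φ ∈ T, (x * a ^ m) • φ = φ := by
  have hb : ∀ φ ∈ Φ, (x * a) • φ ∈ Φ := fun φ h => by rw [mul_smul]; exact hx' _ (ha φ h)
  have h1 : ∀ φ ∈ T, (x * a) ^ m • φ = (x * a ^ m) • φ := fun φ hφ => by
    have : ∀ i, i + 1 ≤ m → (x * a) ^ (i + 1) • φ = x • a ^ (i + 1) • φ := fun i => by
      induction i with
      | zero => simp [mul_smul]
      | succ i ih =>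
        intro hi
        rw [pow_succ' (x * a), mul_smul, ih (by omega), hx _ (pw ha _ φ (TΦ hφ)) (disj _ i.succ_pos hi φ hφ),
          mul_smul, ← mul_smul a, ← pow_succ']
    obtain ⟨j, rfl⟩ := Nat.exists_eq_succ_of_ne_zero m0.ne'
    rw [this j le_rfl, mul_smul]
  constructor
  · intro h
    obtain ⟨φ, hφ, e1⟩ := step e hy hb (fun φ hφ hT => MulAction.injective x (by
      show x • a • φ = x • (x * a) • φ
      rw [hx _ (hb φ hφ) hT, mul_smul])) TΦ h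
    exact ⟨φ, hφ, h1 φ hφ ▸ e1⟩
  · rintro ⟨φ, hφ, e1⟩
    obtain ⟨k, hk⟩ := mem_powers_iff_mem_zpowers.2 ((zpowers y).inv_mem (mem_zpowers y))
    exact step (d := x * a) (y := y⁻¹) (by rw [← e]; group) (hk ▸ pw hy k) ha
      (fun φ hφ hT => by rw [mul_smul, hx _ (ha φ hφ) hT]) TΦ ⟨φ, hφ, (h1 φ hφ).trans e1⟩

end Wr

/-- The wreath lemma. Proof: write `g φ` for `g φ g⁻¹`, `b = x a`. `y` maps `Fix_Φ(a ^ m)` injectively into `Fix_Φ(b ^ m)`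
and permutes the finite set `Φ`, so the two sets have the same size. For `φ ∈ T`: `b ^ i φ = a ^ i φ` for `i < m` (`disj`,
`hx`) and `b ^ m φ = x a ^ m φ`. If `b ^ m` fixes no point of `T`, then every `φ ∈ Fix_Φ(b ^ m)` has all `b ^ i φ ∉ T`, so
`b ^ i φ = a ^ i φ` (`x` fixes `b ^ (i + 1) φ = x (a b ^ i φ)`), hence `Fix_Φ(b ^ m) ⊆ Fix_Φ(a ^ m) \ T` and by counting
`a ^ m` fixes no point of `T`. Conversely, if `a ^ m` fixes no point of `T` then `Fix_Φ(a ^ m) ⊆ Fix_Φ(b ^ m) \ T`. -/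
theorem wr {Φ T : Set X} (e : y * a * y⁻¹ = x * a) (hy : ∀ φ ∈ Φ, y * φ * y⁻¹ ∈ Φ) (ha : ∀ φ ∈ Φ, a * φ * a⁻¹ ∈ Φ)
    (hx' : ∀ φ ∈ Φ, x * φ * x⁻¹ ∈ Φ) (hx : ∀ φ ∈ Φ, φ ∉ T → x * φ * x⁻¹ = φ) (TΦ : T ⊆ Φ) (m0 : 0 < m)
    (disj : ∀ i, 0 < i → i < m → ∀ φ ∈ T, a ^ i * φ * (a ^ i)⁻¹ ∉ T) :
    (∃ φ ∈ T, a ^ m * φ * (a ^ m)⁻¹ = φ) ↔ ∃ φ ∈ T, x * a ^ m * φ * (x * a ^ m)⁻¹ = φ := by
  have : Finite (ConjAct X) := ‹Finite X›
  exact Wr.wr (G := ConjAct X) (a := a) (x := x) (y := y) e hy ha hx' hx TΦ m0 disj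

/-- Proof: `wr` with `Φ` the `N`-class of `e`, `T = {e, e'}`, `m` the least positive integer with
`a ^ m e a ^ (-m) ∈ T` (`orderOf a` is one). An element commuting with `x` is not in `T`. `a ^ m` fixes or swaps `e, e'`
and `x a ^ m` does the opposite. -/
theorem flip {N : Subgroup X} (aN : a ∈ N) (xN : x ∈ N) (yN : y ∈ N) (c : y * a * y⁻¹ = x * a) (ne : e ≠ e')
    (xe : x * e * x⁻¹ = e') (xe' : x * e' * x⁻¹ = e)
    (hB : ∀ g ∈ N, g * e * g⁻¹ = e ∧ g * e' * g⁻¹ = e' ∨ g * e * g⁻¹ = e' ∧ g * e' * g⁻¹ = e ∨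
      Commute x (g * e * g⁻¹) ∧ Commute x (g * e' * g⁻¹)) : False := by
  classical
  have ex : ∃ i, 0 < i ∧ a ^ i * e * (a ^ i)⁻¹ ∈ ({e, e'} : Set X) :=
    ⟨orderOf a, orderOf_pos a, by simp [pow_orderOf_eq_one]⟩
  have nc : ∀ φ ∈ ({e, e'} : Set X), ¬ Commute x φ := by
    rintro _ (rfl | rfl) h
    · exact ne (by rw [← xe, h.eq, mul_inv_cancel_right])
    · exact ne (by rw [← xe', h.eq, mul_inv_cancel_right])
  have cl : ∀ g ∈ N, ∀ φ ∈ {φ | ∃ g ∈ N, g * e * g⁻¹ = φ}, g * φ * g⁻¹ ∈ {φ | ∃ g ∈ N, g * e * g⁻¹ = φ} := by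
    rintro g hg _ ⟨k, hk, rfl⟩
    exact ⟨g * k, N.mul_mem hg hk, by group⟩
  have key := wr (T := {e, e'}) (m := Nat.find ex) c (cl y yN) (cl a aN) (cl x xN) ?_ ?_ (Nat.find_spec ex).1 ?_
  · have e1 : ∀ φ, x * a ^ Nat.find ex * φ * (x * a ^ Nat.find ex)⁻¹ =
        x * (a ^ Nat.find ex * φ * (a ^ Nat.find ex)⁻¹) * x⁻¹ := fun φ => by
      generalize a ^ Nat.find ex = c
      group
    simp only [e1] at key
    rcases hB _ (N.pow_mem aN (Nat.find ex)) with ⟨h1, h2⟩ | ⟨h1, h2⟩ | ⟨h1, -⟩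
    · obtain ⟨_, rfl | rfl, h⟩ := key.1 ⟨e, Or.inl rfl, h1⟩
      · exact ne (by rw [← h, h1, xe])
      · exact ne (by rw [← h, h2, xe'])
    · obtain ⟨_, rfl | rfl, h⟩ := key.2 ⟨e, Or.inl rfl, by rw [h1, xe']⟩
      · exact ne (h.symm.trans h1)
      · exact ne (h2.symm.trans h)
    · exact nc _ (Nat.find_spec ex).2 h1
  · rintro _ ⟨g, hg, rfl⟩ hT
    rcases hB g hg with ⟨h1, -⟩ | ⟨h1, -⟩ | ⟨h1, -⟩
    · exact absurd (Or.inl h1) hT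
    · exact absurd (Or.inr h1) hT
    · rw [h1.eq, mul_inv_cancel_right]
  · rintro _ (rfl | rfl)
    · exact ⟨1, N.one_mem, by simp⟩
    · exact ⟨x, xN, xe⟩
  · intro i h0 hi φ hφ hT
    have hm := fun h => Nat.find_min ex hi ⟨h0, h⟩
    rcases hB _ (N.pow_mem aN i) with ⟨h1, -⟩ | ⟨h1, -⟩ | ⟨h1, h2⟩
    · exact hm (Or.inl h1)
    · exact hm (Or.inr h1)
    · rcases hφ with rfl | rfl
      exacts [nc _ hT h1, nc _ hT h2]

end CL.FA
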