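import Cfsg.Agent.FGS.FA.NT1
import Cfsg.Agent.FGS.FA.Wr

/-!
# Anticentral elements, module lemma: the cyclic case
-/

set_option autoImplicit false
set_option linter.unusedSectionVars false
open Cfsg Subgroup CL.MSS CL.B2 CL.FZ.Mo

namespace CL.FA

variable {W : Type*} [CommGroup W] [Finite W] {F S : Subgroup (MulAut W)} {f g t α : MulAut W} {m : ℕ}

/-- Proof: `U = cm t = cm f ⊓ fx t` has order 4 (`b1`, `cm_le_fx`). `ω w = f w * f⁻¹ w` commutes with `t`, so it maps `U` to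
`U`. On `cm f`: `w * f w * f² w * f³ w * f⁴ w = 1` (it is fixed by `f`; or as `MB.nrm3`), so `ω (ω w) = ω w * w`, and
`g (ω w) = ω (ω (g w))`. For `1 ≠ u ∈ U`: `U = {1, u, ω u, u ω u}` and `g u ∈ U#`. If `g u = ω u` then `g (ω u) = u` and
`u * ω u` is fixed; if `g u = u * ω u` then `ω u` is fixed. -/
theorem five (k : Hm F S) (ht : Tt S t) (fF : f ∈ F) (o5 : orderOf f = 5) (e : t * f * t⁻¹ = f⁻¹)
    (gt : g * t * g⁻¹ = t) (gf : g * f * g⁻¹ = f ^ 2 ∨ g * f * g⁻¹ = f ^ 3) : ∃ u ∈ cm t, u ≠ 1 ∧ g u = u := by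
  have f1 : f ≠ 1 := fun q => by simp [q] at o5
  obtain ⟨-, c4, le⟩ := MB.b1 k ht fF f1 e
  have f5 : ∀ w, f (f (f (f (f w)))) = w := fun w =>
    DFunLike.congr_fun (show f * f * f * f * f = 1 by rw [← pow_orderOf_eq_one f, o5]; simp [pow_succ]) w
  have fi : ∀ w, f⁻¹ w = f (f (f (f w))) := fun w => f.injective (by simp [f5])
  have ap : ∀ {a b c : MulAut W}, a * b * a⁻¹ = c → ∀ w, a (b w) = c (a w) := fun q w => by simp [← q]
  have tf : ∀ w, t (f w) = f (f (f (f (t w)))) := fun w => by rw [ap e, fi]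
  obtain ⟨ω, hω⟩ : ∃ ω : W →* W, ∀ w, ω w = f w * f (f (f (f w))) :=
    ⟨(f : W →* W) * (f * f * f * f : MulAut W), fun _ => rfl⟩
  have ωU : ∀ u ∈ cm t, ω u ∈ cm t := by
    intro u hu
    obtain ⟨w, rfl⟩ := mem_cm.1 hu
    exact mem_cm.2 ⟨ω w, by rw [map_mul, map_inv, hω (t w), hω w, map_mul, mul_comm (f (t w))]; simp only [tf, f5]⟩
  have ω2 : ∀ w, ω (ω w) = f (f w) * f (f (f w)) := fun w => by
    simp only [hω, map_mul, f5]
    rw [mul_assoc, ← mul_assoc w, k.two, one_mul]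
  have ωω : ∀ u ∈ cm t, ω (ω u) = u * ω u := fun u hu => by
    obtain ⟨w, rfl⟩ := mem_cm.1 (le hu)
    rw [ω2, ← inv_eq_of_mul_eq_one_right (k.two (_ * ω _)), eq_inv_iff_mul_eq_one, hω]
    simp only [map_mul, map_inv, f5]
    apply Additive.ofMul.injective
    simp only [ofMul_mul, ofMul_inv, ofMul_one]
    abel
  have gω : ∀ w, g (ω w) = ω (ω (g w)) := fun w => by
    rw [ω2, hω, map_mul]
    rcases gf with q | q <;> simp [ap q, pow_succ, f5, mul_comm]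
  obtain ⟨⟨u, hu⟩, u1⟩ := @exists_ne (cm t) (Finite.one_lt_card_iff_nontrivial.1 (by omega)) 1
  replace u1 : u ≠ 1 := fun q => u1 (Subtype.ext q)
  have v1 : ω u ≠ 1 := fun q => u1 (by simpa [q] using (ωω u hu).symm)
  have uv : u ≠ ω u := fun q => u1 (by have := ωω u hu; rwa [← q, ← q, k.two] at this)
  have w1 : u * ω u ≠ 1 := fun q => uv (mul_right_cancel (q.trans (k.two _).symm))
  have ω3 : ω (ω (ω u)) = u := by rw [ωω _ (ωU u hu), ωω u hu, mul_left_comm, k.two, mul_one]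
  have := (Set.eq_of_subset_of_ncard_le (s := {1, u, ω u, u * ω u}) (t := cm t) (by
    simp [Set.insert_subset_iff, hu, ωU u hu, mul_mem hu (ωU u hu)]) (c4.trans_le (Set.ncard_eq_four.2
      ⟨_, _, _, _, u1.symm, v1.symm, w1.symm, uv, by simpa using v1, by simpa using u1, rfl⟩).ge)).ge (iv_cm gt hu)
  rcases this with q | q | q | q
  · exact absurd ((map_eq_one_iff g g.injective).1 q) u1
  · exact ⟨u, hu, u1, q⟩
  · exact ⟨_, mul_mem hu (ωU u hu), w1, by rw [map_mul, gω, q, ω3, mul_comm]⟩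
  · exact ⟨_, ωU u hu, v1, by rw [gω, q, ← ωω u hu, ω3]⟩

/-- Proof: `p = orderOf f`, `16 ≡ 1 [MOD p]` (`b1`, `card_mod_one`), so `p = 3` or `5`. `g = α ^ m`; `g f g⁻¹ = f ^ j` (`all`).
`wr` with `x = t`, `y` from `k.cj t`, `Φ = {φ ∈ F | orderOf φ = p, ∃ s, Tt S s ∧ s φ s⁻¹ = φ⁻¹}`,
`T = {φ ∈ F | orderOf φ = p, t φ t⁻¹ = φ⁻¹} ⊆ zpowers f` (`hx`: `Hm.cent`; `disj`: `MB.b2`). If `g f g⁻¹ = f` the left side
holds and the right side gives `φ = φ⁻¹`; if `g f g⁻¹ = f⁻¹` the right side holds and the left side gives `φ = φ⁻¹`.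
So `p = 5`, `j = 2, 3`: `five` and `l2` (`β = α`, `k.ec 1`). -/
theorem c2 (k : Hq F S α) (ht : Tt S t) (m0 : 0 < m) (hm : α ^ m * t * (α ^ m)⁻¹ = t)
    (mn : ∀ i, 0 < i → i < m → α ^ i * t * (α ^ i)⁻¹ ≠ t) (fF : f ∈ F) (pf : (orderOf f).Prime)
    (e : t * f * t⁻¹ = f⁻¹) (all : ∀ f' ∈ F, orderOf f' = orderOf f → t * f' * t⁻¹ = f'⁻¹ → f' ∈ zpowers f) :
    False := by
  have k' := k.toHm
  have n1 : ∀ {φ : MulAut W}, orderOf φ = orderOf f → φ ≠ 1 := fun q r => pf.one_lt.ne (by rw [← q, r, orderOf_one])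
  have oc : ∀ g φ : MulAut W, orderOf (g * φ * g⁻¹) = orderOf φ := fun g φ => (MulAut.conj g).orderOf_eq φ
  have iv : ∀ g {s φ : MulAut W}, s * φ * s⁻¹ = φ⁻¹ → g * s * g⁻¹ * (g * φ * g⁻¹) * (g * s * g⁻¹)⁻¹ = (g * φ * g⁻¹)⁻¹ :=
    fun g s φ q => by rw [conj_inv (b := g), conj_inv, ← q]; group
  have cl : ∀ g ∈ 𝐍 F, g ∈ 𝐍 S → ∀ φ ∈ {φ ∈ F | orderOf φ = orderOf f ∧ ∃ s, Tt S s ∧ s * φ * s⁻¹ = φ⁻¹},
      g * φ * g⁻¹ ∈ {φ ∈ F | orderOf φ = orderOf f ∧ ∃ s, Tt S s ∧ s * φ * s⁻¹ = φ⁻¹} :=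
    fun g gF gS φ ⟨a, b, s, hs, c⟩ => ⟨(mem_normalizer_iff.1 gF φ).1 a, (oc g φ).trans b, _, MB.tt_cj hs gS, iv g c⟩
  obtain ⟨y, hy, ey⟩ := k.cj t ht.mem
  have key := wr (T := {φ ∈ F | orderOf φ = orderOf f ∧ t * φ * t⁻¹ = φ⁻¹}) ey (cl y hy.1 hy.2) (cl α k.aF k.aS)
    (cl t (k.nrm ht.mem) (le_normalizer ht.mem)) (fun φ ⟨a, b, s, hs, c⟩ n => mul_inv_eq_of_eq_mul
      (k'.cent hs ht (k'.comm hs ht) (fun q => n ⟨a, b, q ▸ c⟩) a c)) (fun φ ⟨a, b, c⟩ => ⟨a, b, t, ht, c⟩) m0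
    fun i i0 im φ ⟨_, _, c⟩ ⟨a, b, c'⟩ => have hs := MB.tt_cj ht (pow_mem k.aS i)
      n1 b (MB.b2 k' hs ht (k'.comm hs ht) (mn i i0 im) a (iv _ c) c')
  have gF := pow_mem k.aF m
  have fin := fun h => (five k' ht fF h e hm ·)
  have l := fun u => l2 (u := u) k' (fun s hs => MB.tt_cj hs k.aS) (fun z hz => k.ec 1 (one_mem _) z (by simpa using hz))
    ht m0 mn
  generalize α ^ m = g at *
  have p1 : g * f * g⁻¹ ≠ f := fun q => by
    obtain ⟨φ, ⟨a, b, c⟩, d⟩ := key.1 ⟨f, ⟨fF, rfl, e⟩, q⟩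
    obtain ⟨i, rfl⟩ := mem_zpowers_iff.1 (all φ a b c)
    rw [show t * g * f ^ i * (t * g)⁻¹ = t * (g * f ^ i * g⁻¹) * t⁻¹ by group, ← conj_zpow (a := g), q, c] at d
    exact n1 b (MB.eq_one k' a d.symm)
  have p2 : g * f * g⁻¹ ≠ f⁻¹ := fun q => by
    obtain ⟨φ, ⟨a, b, c⟩, d⟩ := key.2 ⟨f, ⟨fF, rfl, e⟩, by
      rw [show t * g * f * (t * g)⁻¹ = t * (g * f * g⁻¹) * t⁻¹ by group, q, ← conj_inv, e, inv_inv]⟩
    obtain ⟨i, rfl⟩ := mem_zpowers_iff.1 (all φ a b c)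
    rw [← conj_zpow (a := g), q, inv_zpow] at d
    exact n1 b (MB.eq_one k' a d.symm)
  obtain ⟨j, hj, ej⟩ : ∃ j < orderOf f, f ^ j = g * f * g⁻¹ := by
    classical
    simpa using mem_zpowers_iff_mem_range_orderOf.1
      (all _ ((mem_normalizer_iff.1 gF f).1 fF) (oc g f) (by simpa only [hm] using iv g e))
  have j0 : j ≠ 0 := fun q => n1 (oc g f) (by rw [← ej, q, pow_zero])
  have j1 : j ≠ 1 := fun q => p1 (by rw [← ej, q, pow_one])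
  have j2 : j + 1 ≠ orderOf f := fun q => p2 (by rw [← ej, eq_inv_iff_mul_eq_one, ← pow_succ, q, pow_orderOf_eq_one])
  have d := (Nat.modEq_iff_dvd' (by norm_num)).1 ((MB.b1 k' ht fF (n1 rfl) e).1 ▸ card_mod_one k.two pf (MB.ne_two k' fF) rfl
    le_rfl (iv_cm' (.inl (mul_inv_cancel_right f f)))).symm
  rcases (pf.dvd_mul (m := 3) (n := 5)).1 d with d | d <;> rw [Nat.prime_dvd_prime_iff_eq pf (by norm_num)] at d
  · omega
  · obtain ⟨u, hu, u1, q⟩ := fin d (by rw [← ej]; rcases (by omega : j = 2 ∨ j = 3) with rfl | rfl <;> simp)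
    exact u1 (l u hu q)

end CL.FA
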