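import Cfsg.Agent.FGS.FA.EC
import Cfsg.Agent.FGS.FZ.MG

/-!
# Anticentral elements: module lemma T
-/

set_option autoImplicit false
set_option linter.unusedSectionVars false
open Cfsg Subgroup CL.Th CL.MSS CL.B2 CL.FZ CL.FZ.MG
open CL.B2.PUq (br pre mem_br br_mono br_norm)
open scoped commutatorElement IsMulCommutative

namespace CL.FA

open FZ.Tor in
theorem core' {Γ W : Type*} [Group Γ] [AddCommGroup W] [DistribMulAction Γ W] [Finite W] {H : Subgroup Γ} {q : ℕ}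
    {k : Γ} (two : ∀ w : W, w + w = 0) (ff : Tor.FF W H) (l : Tor.Ln W H q k) :
    ∃ z : W, (∀ a ∈ normalizer (H : Set Γ), ∃ h ∈ H, h • a • z = z) ∧ ∃ k', Tor.Ln W H q k' ∧ k' • z ≠ z := by
  classical
  let s : Setoid {z : W // Om H q z} := ⟨fun a b => Rl H q a.1 b.1, fun _ => .refl _, Rl.symm, Rl.trans⟩
  let _ := Fintype.ofFinite (Quotient s)
  have sp : ∀ i j : Quotient s, Rl H q i.out.1 j.out.1 → i = j := fun i j h => Quotient.out_equiv_out.1 h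
  refine ⟨∑ c : Quotient s, c.out.1, fun a ha => ?_, ?_⟩
  · let σ : Quotient s → Quotient s := fun c => Quotient.mk s ⟨a • c.out.1, c.out.2.cj ha⟩
    have r : ∀ c, Rl H q (a • c.out.1) (σ c).out.1 := fun c => Rl.symm (Quotient.mk_out (s := s) _)
    have i : Function.Injective σ := fun c c' e => sp _ _ (by
      have := ((r c).trans (e ▸ (r c').symm)).cj (inv_mem ha)
      rwa [inv_smul_smul, inv_smul_smul] at this)
    obtain ⟨n, hn, e⟩ := simul two ff _ _ (fun c => (σ c).out.2) r (fun c c' h => i (sp _ _ h)) Finset.univ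
    refine ⟨n, NN_le hn, ?_⟩
    rw [Finset.smul_sum, Finset.smul_sum, Finset.sum_congr rfl e]
    exact (Finite.injective_iff_bijective.1 i).sum_comp fun c => c.out.1
  · obtain ⟨x, hx, x0⟩ := l.ne
    obtain ⟨c0⟩ : Nonempty (Quotient s) := ⟨Quotient.mk s ⟨x, x0, k, l, hx⟩⟩
    obtain ⟨y0, k', l', hy⟩ := c0.out.2
    refine ⟨k', l', fun e => ?_⟩
    have : d W k' (∑ c : Quotient s, c.out.1) = 0 := sub_eq_zero.2 e
    rw [map_sum, Finset.sum_eq_single c0 (fun c _ n => ?_) (by simp)] at this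
    · exact y0 (l'.nofix two ff hy (sub_eq_zero.1 this))
    · obtain ⟨z0, _, l'', hz⟩ := c.out.2
      exact sub_eq_zero.2 (claim two ff l'' l' hz hy z0 y0 fun h => n (sp _ _ h))

variable {X : Type*} [Group X] [Finite X] {a : X} {A G M V : Subgroup X}

theorem ecF [IsMulCommutative V] (ac : Ac a A G) (hM : M ≤ G) (AM : A ≤ 𝐍 M) (VM : V ≤ M) (MV : M ≤ 𝐍 V)
    (aV : a ∈ 𝐍 V) (hV : IsElementaryAbelian 2 V) (o : O2 (br (ρ V) M) = ⊥) :
    ∀ h ∈ br (ρ V) M, ∀ z : V, (h * ρ V ⟨a, aV⟩) z = z → ∀ f ∈ fittingOf (br (ρ V) M), f z = z := by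
  rintro _ ⟨m, hm, rfl⟩ z e f hf
  have odd : Odd (Nat.card (fittingOf (br (ρ V) M))) := Nat.coprime_two_right.1 (coprime_card_fittingOf o)
  have MK : M ≤ 𝐍 (M ⊓ pre (ρ V) (fittingOf (br (ρ V) M)) : Subgroup X) :=
    le_normalizer_inf le_normalizer (le_normalizer_of_cj_le fun m hm => cj_le_iff_forall.2 (by
      rintro _ ⟨y, hy, rfl⟩
      exact ⟨⟨m, MV hm⟩ * y * ⟨m, MV hm⟩⁻¹, by
        rw [SetLike.mem_coe, mem_comap, map_mul, map_mul, map_inv]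
        exact (mem_normalizer_iff.1 (le_normalizer_fittingOf _ (mem_br (x := ⟨m, MV hm⟩) hm)) _).1 hy, rfl⟩))
  have c : (m : X) * a * z = z * (m * a) := by
    rw [← map_mul] at e
    exact mul_inv_eq_iff_eq_mul.1 ((ρ_val (m * ⟨a, aV⟩) z).symm.trans (congrArg Subtype.val e))
  have e0 : ∀ B ≤ 𝐍 V, (𝐂 V).relIndex B = Nat.card (br (ρ V) B) := fun B hB => by
    rw [br, ← relIndex_ker, ← relIndex_subgroupOf hB]
    congr 1
    ext g; exact ρ_one.symm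
  have e1 := e0 (M ⊓ pre (ρ V) (fittingOf (br (ρ V) M))) (inf_le_left.trans MV)
  have e2 : br (ρ V) (M ⊓ pre (ρ V) (fittingOf (br (ρ V) M))) ≤ fittingOf (br (ρ V) M) := by
    rintro _ ⟨y, ⟨-, y', hy, ey⟩, rfl⟩
    rwa [← show y' = y from Subtype.ext ey]
  have pV : IsPGroup 2 V := fun v => ⟨1, Subtype.ext (by simpa using hV.2 _ v.2)⟩
  have := ac.ec_odd hM AM pV VM MV z.2 hm c inf_le_left MK (Odd.of_dvd_nat odd
    ((relIndex_dvd_of_le_left _ (centralizer_le (Set.singleton_subset_iff.2 z.2))).trans (e1 ▸ card_dvd_of_le e2)))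
  obtain ⟨y, hy, rfl⟩ := fittingOf_le _ hf
  exact Subtype.ext ((ρ_val y z).trans (mul_inv_eq_iff_eq_mul.2 (this ⟨hy, y, hf, rfl⟩ _ rfl).symm))

attribute [local instance] Tor.act

open FZ.Tor FZ.Mo in
theorem tor (ac : Ac a A G) (hM : M ≤ G) (hA : A ≤ 𝐍 M) (hs : Group.IsSolvable M) (hV : V ≤ M) (hn : M ≤ 𝐍 V)
    (hA' : A ≤ 𝐍 V) (el : IsElementaryAbelian 2 V)
    (red : ∀ P ≤ M, M ≤ 𝐍 P → (∀ p ∈ P, ∃ n : ℕ, p ^ 2 ^ n ∈ 𝐂 V) → P ≤ 𝐂 V)
    (ff : ∀ E ≤ M, (∀ e ∈ E, e * e ∈ 𝐂 V) → ¬ E ≤ 𝐂 V → (𝐂 V).relIndex E < (𝐂 E).relIndex V) {k : X} (hk : k ∈ M)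
    (e : ∀ u ∈ ⁅V, zpowers k⁆, ∀ u' ∈ ⁅V, zpowers k⁆, u ≠ 1 → u' ≠ 1 → ∃ n : ℕ, k ^ n * u * (k ^ n)⁻¹ = u') :
    ⁅V, zpowers k⁆ = ⊥ := by
  have := el.1
  by_contra ne
  have two : ∀ w : Additive V, w + w = 0 := fun w => Subtype.ext ((pow_two _).symm.trans (el.2 _ w.toMul.2))
  have two' : ∀ w : V, w * w = 1 := fun w => Subtype.ext ((pow_two _).symm.trans (el.2 _ w.2))
  have n0 : ∀ w : Additive V, w ≠ 0 → (w.toMul : X) ≠ 1 := fun w n e => n (Subtype.ext e)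
  have t : Tr (Additive V) (⟨k, hn hk⟩ : 𝐍 V) := fun u hu u' hu' a b => by
    have h1 := Z_iff.1 hu
    have h2 := Z_iff.1 hu'
    obtain ⟨n, h⟩ := e (u.toMul : X) h1 (u'.toMul : X) h2 (n0 u a) (n0 u' b)
    refine ⟨n, Additive.toMul.injective (Subtype.ext ?_)⟩
    rw [smul_val, coe_pow]
    exact h
  have nz : ∃ z ∈ Z (Additive V) (⟨k, hn hk⟩ : 𝐍 V), z ≠ 0 := by
    obtain ⟨⟨u, hu⟩, u1⟩ := ne_bot_iff_exists_ne_one.1 ne
    have m : u ∈ V := (le_normalizer_iff_commutator_le_left ..).1 (zpowers_le.2 (hn hk)) hu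
    exact ⟨Additive.ofMul ⟨u, m⟩, Z_iff.2 hu, fun h => u1 (Subtype.ext (congrArg (fun w : Additive V => (w.toMul : X)) h))⟩
  obtain ⟨z, h, k', l', nf⟩ := core' two (ffa ff) ⟨(show (⟨k, hn hk⟩ : 𝐍 V) ∈ M.subgroupOf (𝐍 V) from hk), t, rfl, nz⟩
  have o := o2 hn red
  have odd : Odd (Nat.card (fittingOf (br (ρ V) M))) := Nat.coprime_two_right.1 (coprime_card_fittingOf o)
  have ho : ∀ y ∈ fittingOf (br (ρ V) M), Odd (orderOf y) := fun y hy =>
    Odd.of_dvd_nat odd (by rw [← Nat.card_zpowers]; exact card_dvd_of_le (zpowers_le.2 hy))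
  have sv : Group.IsSolvable (br (ρ V) M) := by
    have : Group.IsSolvable (M.subgroupOf (𝐍 V)) := Group.isSolvable_of_surjective (f := (subgroupOfEquivOfLe hn).symm.toMonoidHom)
      (subgroupOfEquivOfLe hn).symm.surjective
    exact Group.isSolvable_of_surjective (MonoidHom.subgroupMap_surjective (ρ V) _)
  have sm : ∀ (g : 𝐍 V) (w : Additive V), (g • w).toMul = ρ V g w.toMul := fun g w => Subtype.ext rfl
  obtain ⟨g, hg, e'⟩ := h ⟨a, hA' ac.mem⟩ ((subgroupOf_normalizer_eq hn).le (hA ac.mem))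
  have Fz := ecF ac hM hA hV hn (hA' ac.mem) el o _ (mem_br (x := g) hg) z.toMul (by
    rw [← map_mul, ← sm, mul_smul, e'])
  have kM : ρ V k' ∈ br (ρ V) M := mem_br l'.mem
  have kF := le_normalizer_fittingOf _ kM
  have iv : ∀ u ∈ fxs (fittingOf (br (ρ V) M)), ρ V k' u ∈ fxs (fittingOf (br (ρ V) M)) := fun u hu => mem_fxs.2 fun f hf => by
    have := mem_fxs.1 hu _ ((mem_normalizer_iff.1 (inv_mem kF) f).1 hf)
    rw [inv_inv, MulAut.mul_apply, MulAut.mul_apply, MulAut.inv_apply, MulEquiv.symm_apply_eq] at this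
    exact this
  have ivn : ∀ n : ℕ, ∀ u ∈ fxs (fittingOf (br (ρ V) M)), ρ V (k' ^ n) u ∈ fxs (fittingOf (br (ρ V) M)) := fun n => by
    rw [map_pow]; exact Iv.pow iv n
  have cF : cm (ρ V k') ≤ fxs (fittingOf (br (ρ V) M)) := fun w hw => by
    obtain ⟨u, rfl⟩ := mem_cm.1 hw
    by_cases w1 : ρ V k' u * u⁻¹ = 1
    · rw [w1]; exact one_mem _
    obtain ⟨n, hn'⟩ := l'.tr _ (d_mem k' z) _ (d_mem k' (Additive.ofMul u)) (sub_ne_zero.2 nf) fun e =>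
      w1 (by have := congrArg Additive.toMul e; rwa [toMul_sub, sm, div_eq_mul_inv] at this)
    have := congrArg Additive.toMul hn'
    rw [sm, toMul_sub, toMul_sub, sm, sm, div_eq_mul_inv, div_eq_mul_inv] at this
    rw [← toMul_ofMul u, ← this]
    exact ivn n _ (mul_mem (iv _ (mem_fxs.2 Fz)) (inv_mem (mem_fxs.2 Fz)))
  have kill : ∀ y ∈ fittingOf (br (ρ V) M), cm y ≤ fxs (fittingOf (br (ρ V) M)) → y = 1 := fun y hy c =>
    eq_one_of_cm (eq_bot_iff.2 fun w hw => fx_inf_cm two' (ho y hy) ▸ ⟨mem_fxs.1 (c hw) y hy, hw⟩)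
  have kC : ρ V k' ∈ 𝐂 (fittingOf (br (ρ V) M)) := fun f hf => by
    have := kill (f⁻¹ * (ρ V k' * f * (ρ V k')⁻¹)) (mul_mem (inv_mem hf) ((mem_normalizer_iff.1 kF f).1 hf)) (by
      rw [show f⁻¹ * (ρ V k' * f * (ρ V k')⁻¹) = f⁻¹ * ρ V k' * f⁻¹⁻¹ * (ρ V k')⁻¹ by group]
      refine (cm_mul _ _).trans (sup_le ?_ ((cm_inv (ρ V k')).le.trans cF))
      rw [cm_cj]
      rintro _ ⟨w, hw, rfl⟩
      have := mem_fxs.1 (cF hw) _ (inv_mem hf)
      exact (show f⁻¹ w = w from this).symm ▸ cF hw)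
    rw [inv_mul_eq_one, eq_mul_inv_iff_mul_eq] at this
    exact this
  have := kill _ (centralizer_fittingOf_inf_le sv ⟨kC, kM⟩) cF
  exact nf (Additive.toMul.injective (by rw [sm, this]; rfl))

end CL.FA
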