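import Cfsg.Agent.FGS.FA.NT2
import Cfsg.Agent.FGS.FA.NT3
import Cfsg.Agent.FGS.FA.NT4
import Cfsg.Agent.FGS.FA.Tor

/-!
# Anticentral elements, module lemma: there are no 2F-offenders
-/

set_option autoImplicit false
set_option linter.unusedSectionVars false
open Cfsg Subgroup CL.Th CL.MSS CL.B2 CL.FZ CL.FZ.MG CL.FZ.Mo
open CL.B2.PUq (br pre mem_br br_mono br_norm)
open scoped commutatorElement IsMulCommutative

namespace CL.FA

theorem Hq.no_tt {W : Type*} [CommGroup W] [Finite W] {F S : Subgroup (MulAut W)} {t α : MulAut W} (k : Hq F S α)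
    (ht : Tt S t) : False := by
  classical
  have ex : ∃ m, 0 < m ∧ α ^ m * t * (α ^ m)⁻¹ = t := ⟨orderOf α, orderOf_pos α, by rw [pow_orderOf_eq_one]; group⟩
  obtain ⟨m0, hm⟩ := Nat.find_spec ex
  have mn : ∀ i, 0 < i → i < Nat.find ex → α ^ i * t * (α ^ i)⁻¹ ≠ t := fun i h1 h2 e => Nat.find_min ex h2 ⟨h1, e⟩
  rcases split k.toHm ht with ⟨c, h1, h2, h3, h4⟩ | ⟨f, h1, h2, h3, h4⟩
  exacts [c1 k ht m0 hm mn h1 h2 h3 h4, c2 k ht m0 hm mn h1 h2 h3 h4]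

variable {X : Type*} [Group X] [Finite X] {a : X} {A G M S V B : Subgroup X}

theorem hm [IsMulCommutative V] (ac : Ac a A G) (hM : M ≤ G) (AM : A ≤ 𝐍 M) (hs : Group.IsSolvable M) (VM : V ≤ M)
    (MV : M ≤ 𝐍 V) (AV : A ≤ 𝐍 V)
    (hV : IsElementaryAbelian 2 V) (o : O2 (br (ρ V) M) = ⊥) {T : Subgroup (MulAut V)} (hT : IsPGroup 2 T)
    (TM : T ≤ br (ρ V) M) : Hm (fittingOf (br (ρ V) M)) T := by
  have two : ∀ w : V, w * w = 1 := fun w => Subtype.ext ((pow_two _).symm.trans (hV.2 _ w.2))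
  have odd : Odd (Nat.card (fittingOf (br (ρ V) M))) := Nat.coprime_two_right.1 (coprime_card_fittingOf o)
  have sv : Group.IsSolvable (br (ρ V) M) := by
    have : Group.IsSolvable (M.subgroupOf (𝐍 V)) := Group.isSolvable_of_surjective (f := (subgroupOfEquivOfLe MV).symm.toMonoidHom)
      (subgroupOfEquivOfLe MV).symm.surjective
    exact Group.isSolvable_of_surjective (MonoidHom.subgroupMap_surjective (ρ V) _)
  refine ⟨two, odd, isNilpotent_fittingOf _, hT, TM.trans (le_normalizer_fittingOf _), ?_, fun x hx h4 => ?_⟩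
  · exact eq_bot_of_le_fittingOf o (hT.to_le inf_le_left)
      (le_trans (le_inf inf_le_right (inf_le_left.trans TM)) (centralizer_fittingOf_inf_le sv))
  · have nn : ∀ {L : Subgroup X}, L ≤ 𝐍 M → L ≤ 𝐍 V → L ≤ 𝐍 (M ⊓ pre (ρ V) (fittingOf (br (ρ V) M)) : Subgroup X) :=
      fun {L} LM LV => le_normalizer_inf LM (le_normalizer_of_cj_le fun m hm => cj_le_iff_forall.2 (by
        rintro _ ⟨y, hy, rfl⟩
        exact ⟨⟨m, LV hm⟩ * y * ⟨m, LV hm⟩⁻¹, by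
          rw [SetLike.mem_coe, mem_comap, map_mul, map_mul, map_inv]
          exact (mem_normalizer_iff.1 (normalizer_le_normalizer_fittingOf _ (br_norm LM MV (mem_br (x := ⟨m, LV hm⟩) hm))) _).1 hy,
          rfl⟩))
    obtain ⟨k, hk, rfl⟩ := fittingOf_le _ hx
    have ho : ∀ y ∈ fittingOf (br (ρ V) M), Odd (orderOf y) := fun y hy =>
      Odd.of_dvd_nat odd (by rw [← Nat.card_zpowers]; exact card_dvd_of_le (zpowers_le.2 hy))
    have cv : ∀ e ∈ M ⊓ pre (ρ V) (fittingOf (br (ρ V) M)), ∀ n : ℕ, e ^ 2 ^ n ∈ 𝐂 V → e ∈ 𝐂 V := by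
      rintro _ ⟨-, y, hy, rfl⟩ n h
      have h1 : orderOf (ρ V y) ∣ 2 ^ n := orderOf_dvd_of_pow_eq_one (by rw [← map_pow]; exact ρ_one.2 h)
      exact ρ_one.1 (orderOf_eq_one_iff.1 (Nat.Coprime.eq_one_of_dvd
        ((Nat.coprime_two_right.2 (ho _ hy)).pow_right n) h1))
    have := tor (M := M ⊓ pre (ρ V) (fittingOf (br (ρ V) M))) ac (inf_le_left.trans hM) (nn AM AV)
      (Group.isSolvable_of_isSolvable_injective (inclusion_injective inf_le_left)) (fun v hv => ⟨VM hv, ⟨v, le_normalizer hv⟩, by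
        rw [SetLike.mem_coe, mem_comap, ρ_one.2 (le_centralizer V hv)]; exact one_mem _, rfl⟩) (inf_le_left.trans MV) AV hV
      (fun P hP _ h p hp => let ⟨n, hn⟩ := h p hp; cv p (hP hp) n hn)
      (fun E hE sq hn => (hn fun e he => cv e (hE he) 1 (by rw [pow_one, pow_two]; exact sq e he)).elim)
      (k := k) ⟨hk, k, hx, rfl⟩ (by
        rw [cm_iff]
        rintro _ ⟨u, hu, rfl⟩ _ ⟨u', hu', rfl⟩ u1 u1'
        obtain ⟨n, e⟩ := trans two (ho _ hx) h4 hu hu' (fun e => u1 (e ▸ rfl)) fun e => u1' (e ▸ rfl)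
        exact ⟨n, by rw [← map_pow] at e; exact congrArg Subtype.val e⟩)
    rw [cm_iff, map_eq_bot_iff_of_injective _ V.subtype_injective] at this
    exact eq_one_of_cm this

theorem strict2F (ac : Ac a A G) (hM : M ≤ G) (AM : A ≤ 𝐍 M)
    (hs : Group.IsSolvable M) (syl : SylIn 2 S M) (AS : A ≤ 𝐍 S) (VM : V ≤ M) (MV : M ≤ 𝐍 V) (AV : A ≤ 𝐍 V)
    (hV : IsElementaryAbelian 2 V) (red : ∀ P ≤ M, M ≤ 𝐍 P → (∀ p ∈ P, ∃ n : ℕ, p ^ 2 ^ n ∈ 𝐂 V) → P ≤ 𝐂 V)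
    (hB : B ≤ M) (sq : ∀ b ∈ B, b * b ∈ 𝐂 V) (hn : ¬ B ≤ 𝐂 V) : (𝐂 V).relIndex B ^ 2 < (𝐂 B).relIndex V := by
  have := hV.1
  have o := o2 MV red
  have s2 : ∀ y ∈ br (ρ V) B, y * y = 1 := by
    rintro _ ⟨b, hb, rfl⟩
    rw [← map_mul]; exact ρ_one.2 (sq _ hb)
  have el : IsElementaryAbelian 2 (br (ρ V) B) := ⟨⟨⟨fun a b => Subtype.ext (by
    have i : ∀ y ∈ br (ρ V) B, y⁻¹ = y := fun y hy => inv_eq_of_mul_eq_one_right (s2 y hy)
    rw [coe_mul, coe_mul, ← i _ (mul_mem a.2 b.2), mul_inv_rev, i _ a.2, i _ b.2])⟩⟩, fun y hy => (pow_two _).trans (s2 y hy)⟩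
  have pB : IsPGroup 2 (br (ρ V) B) := fun y => ⟨1, Subtype.ext ((pow_two _).trans (s2 y y.2))⟩
  have e1 : (𝐂 V).relIndex B = Nat.card (br (ρ V) B) := by
    rw [br, ← relIndex_ker, ← relIndex_subgroupOf (hB.trans MV)]
    congr 1
    ext g; exact ρ_one.symm
  have e2 : (𝐂 B).relIndex V = (fxs (br (ρ V) B)).index := by
    rw [relIndex]
    congr 1
    ext v
    rw [mem_fxs]
    exact ⟨by rintro h _ ⟨b, hb, rfl⟩; exact Subtype.ext (mul_inv_eq_iff_eq_mul.2 (h b hb)), fun h b hb =>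
      mul_inv_eq_iff_eq_mul.1 (congrArg Subtype.val (h _ (mem_br (x := ⟨b, MV (hB hb)⟩) hb)))⟩
  rw [e1, e2]
  by_contra! le
  obtain ⟨t, ht, tt⟩ := (hm ac hM AM hs VM MV AV hV o pB (br_mono hB)).rank le_rfl el (fun e => hn fun b hb =>
    ρ_one.1 (mem_bot.1 (e ▸ mem_br (x := ⟨b, MV (hB hb)⟩) hb))) le
  have sy : SylIn 2 (br (ρ V) S) (br (ρ V) M) := (syl.subgroupOf MV).map _
  obtain ⟨g, -, hg⟩ := sy.exists_conj_le pB (br_mono hB)
  have SV := syl.le.trans MV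
  have nF : ∀ {L : Subgroup X}, L ≤ 𝐍 M → ∀ y : (𝐍 V : Subgroup X), (y : X) ∈ L → ρ V y ∈ 𝐍 (fittingOf (br (ρ V) M)) :=
    fun LM y hy => normalizer_le_normalizer_fittingOf _ (br_norm LM MV (mem_br hy))
  refine Hq.no_tt (α := ρ V ⟨a, AV ac.mem⟩) ⟨hm ac hM AM hs VM MV AV hV o sy.pgroup sy.le, nF AM _ ac.mem,
    br_norm AS SV (mem_br (x := ⟨a, AV ac.mem⟩) ac.mem),
    fun h hh => ecF ac hM AM VM MV (AV ac.mem) hV o h (fittingOf_le _ hh), ?_⟩ (t := g * t * g⁻¹)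
    ⟨hg ⟨t, ht, rfl⟩, by rw [conj_mul, tt.sq]; simp, by simpa using tt.ne, by rw [card_cm_cj]; exact tt.le⟩
  rintro _ ⟨s, hs', rfl⟩
  obtain ⟨y, hy, e⟩ := ac.cj S (syl.le.trans hM) AS s hs'
  have yV : y ∈ 𝐍 V := sup_le SV AV hy
  refine ⟨ρ V ⟨y, yV⟩, ⟨nF (sup_le (syl.le.trans le_normalizer) AM) _ hy,
    br_norm (sup_le le_normalizer AS) SV (mem_br (x := ⟨y, yV⟩) hy)⟩, ?_⟩
  rw [← map_inv, ← map_mul, ← map_mul, ← map_mul]
  exact congrArg _ (Subtype.ext e)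

end CL.FA
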