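import Cfsg.Agent.FGS.FA.Defs
import Cfsg.Agent.FGS.FZ.MB

/-!
# Anticentral elements, module lemma: orbit products
-/

set_option autoImplicit false
set_option linter.unusedSectionVars false
open Cfsg Subgroup CL.MSS CL.B2 CL.FZ.Mo

namespace CL.FA

variable {W : Type*} [CommGroup W] [Finite W] {F S : Subgroup (MulAut W)} {s t x β : MulAut W} {m : ℕ} {u : W}

/-- Proof: `x ≠ 1`; `s` centralizes `x` (`Hm.cent`, `Hm.comm`), so `Iv x (cm s)`; `|cm s| = 4` (`MB.exists_inv`, `MB.b1`) is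
`|cm s ⊓ fx x| |cm s ⊓ cm x|` (`card_dec`). `|cm s ⊓ cm x| ≠ 2` (`x` has no fixed point on `cm x`). If it is `4` then
`cm s ≤ cm x`, `cm t ≤ cm x` (`b1`), and as in the proof of `MB.b2` `Tt S (t s)`, against `MB.no4`. -/
theorem l1 (k : Hm F S) (ht : Tt S t) (hs : Tt S s) (ne : s ≠ t) (hx : x ∈ F) (e : t * x * t⁻¹ = x⁻¹) :
    cm s ≤ fx x := by
  by_cases x1 : x = 1
  · exact fun u _ => by rw [x1]; rfl
  have ho := k.odd_ord hx
  have c := k.comm ht hs
  have cs := k.cent ht hs c ne.symm hx e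
  have i1 : Iv x (cm s) := iv_cm' (.inl (by rw [← cs]; group))
  obtain ⟨y, hy, py, ey⟩ := MB.exists_inv k hs
  have h2 := (MB.b1 k hs hy (fun h => by rw [h, orderOf_one] at py; exact Nat.not_prime_one py) ey).2.1
  obtain ⟨h16, -, h3⟩ := MB.b1 k ht hx x1 e
  have h4 := card_dec k.two ho i1
  rw [h2] at h4
  have h6 : Nat.card (cm s ⊓ cm x : Subgroup W) ≤ 4 := h2 ▸ card_le_of_le inf_le_left
  have h7 : Nat.card (cm s ⊓ fx x : Subgroup W) ≤ 4 := h2 ▸ card_le_of_le inf_le_left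
  have h8 : Nat.card (cm s ⊓ cm x : Subgroup W) ≠ 4 := fun h8 => by
    have h9 : cm s ≤ cm x := (eq_of_le_of_card_ge inf_le_left (by omega)).ge.trans inf_le_right
    have tr : ∀ {a : MulAut W}, cm a ≤ cm x → Iv a (fx x) → ∀ u ∈ fx x, a u = u := fun {a} h1 h2 u hu => by
      have : a u * u⁻¹ ∈ fx x ⊓ cm x := mem_inf.2 ⟨mul_mem (h2 u hu) (inv_mem hu), h1 (cm_mem a u)⟩
      rwa [fx_inf_cm k.two ho, mem_bot, mul_inv_eq_one] at this
    have h1 : cm (t * s) ≤ cm x := (cm_mul _ _).trans (sup_le h3 h9)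
    have h2 : cm (t * s) ≤ (cm x).map ((t * s).toMonoidHom / MonoidHom.id W) := fun w hw => by
      obtain ⟨u, rfl⟩ := mem_cm.1 hw
      have h3' := (dec k.two ho (U := ⊤) fun _ _ => mem_top _).le (mem_top u)
      obtain ⟨p, hp, q, hq, rfl⟩ := mem_sup.1 h3'
      refine ⟨q, hq.2, ?_⟩
      have : (t * s) p = p := by
        rw [MulAut.mul_apply, tr h9 (iv_fx' (.inl (by rw [cs]; group))) p hp.2, tr h3 (iv_fx' (.inr e)) p hp.2]
      rw [map_mul, this, mul_inv, mul_mul_mul_comm, mul_inv_cancel, one_mul]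
      simp [div_eq_mul_inv]
    have h3 := card_map_cm (t * s) (cm x)
    have h4 := card_le_of_le h2
    have h5 := card_le_of_le (le_inf h1 (cm_le_fx k.two (MB.sq_mul ht hs c)))
    exact MB.no4 k ht hs c ⟨S.mul_mem ht.mem hs.mem, MB.sq_mul ht hs c, MB.mul_ne hs ne.symm, by nlinarith⟩
  have h9 : Nat.card (cm s ⊓ cm x : Subgroup W) ≠ 2 := fun h => by
    obtain ⟨u, u1, hu⟩ := (Nat.card_eq_two_iff' (1 : (cm s ⊓ cm x : Subgroup W))).1 h
    have e1 := hu ⟨x u.1, (i1.inf (iv_of_cm_le le_rfl)) u.1 u.2⟩ fun h' =>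
      u1 (Subtype.ext ((map_eq_one_iff x x.injective).1 (congrArg Subtype.val h')))
    have e2 : u.1 ∈ fx x ⊓ cm x := ⟨congrArg Subtype.val e1, u.2.2⟩
    rw [fx_inf_cm k.two ho, mem_bot] at e2
    exact u1 (Subtype.ext e2)
  have h10 : Nat.card (cm s ⊓ fx x : Subgroup W) = 4 := by
    generalize Nat.card (cm s ⊓ cm x : Subgroup W) = m at *
    generalize Nat.card (cm s ⊓ fx x : Subgroup W) = n at *
    interval_cases m <;> omega
  exact (eq_of_le_of_card_ge inf_le_left (by omega)).ge.trans inf_le_right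

/-- Proof: `z = ∏ i ∈ range m, (β ^ i) u` is fixed by `β`, so by `F`. Take `x ∈ F` of prime order inverted by `t`
(`MB.exists_inv`). `(β ^ i) u ∈ cm (β ^ i t β ^ (-i))` (`iv_cm`) is fixed by `x` for `0 < i < m` (`l1`), so `x u = u`; but
`u ∈ cm t ≤ cm x` (`b1`) and `fx x ⊓ cm x = ⊥`. -/
theorem l2 (k : Hm F S) (pI : ∀ s, Tt S s → Tt S (β * s * β⁻¹)) (ec : ∀ z : W, β z = z → ∀ f ∈ F, f z = z)
    (ht : Tt S t) (m0 : 0 < m) (mn : ∀ i, 0 < i → i < m → β ^ i * t * (β ^ i)⁻¹ ≠ t) (hu : u ∈ cm t)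
    (e : (β ^ m) u = u) : u = 1 := by
  obtain ⟨n, rfl⟩ : ∃ n, m = n + 1 := ⟨m - 1, by omega⟩
  have pw : ∀ i, Tt S (β ^ i * t * (β ^ i)⁻¹) := fun i => by
    induction i with
    | zero => simpa using ht
    | succ i ih =>
      have := pI _ ih
      rwa [show β * (β ^ i * t * (β ^ i)⁻¹) * β⁻¹ = β ^ (i + 1) * t * (β ^ (i + 1))⁻¹ by rw [pow_succ']; group] at this
  obtain ⟨x, hx, px, ex⟩ := MB.exists_inv k ht
  have x1 : x ≠ 1 := fun h => by rw [h, orderOf_one] at px; exact Nat.not_prime_one px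
  have h1 : β (∏ i ∈ Finset.range (n + 1), (β ^ i) u) = ∏ i ∈ Finset.range (n + 1), (β ^ i) u := by
    rw [map_prod, Finset.prod_range_succ, Finset.prod_range_succ', ← MulAut.mul_apply, ← pow_succ', e]
    congr 1
    exact Finset.prod_congr rfl fun i _ => by rw [← MulAut.mul_apply, ← pow_succ']
  have h2 := ec _ h1 x hx
  have h3 : ∏ i ∈ Finset.range n, (β ^ (i + 1)) u ∈ fx x := prod_mem fun i hi =>
    l1 k ht (pw (i + 1)) (mn _ i.succ_pos (by simpa using hi)) hx ex (iv_cm rfl hu)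
  rw [Finset.prod_range_succ', map_mul, mem_fx.1 h3, mul_left_cancel_iff] at h2
  have h4 : u ∈ fx x ⊓ cm x := ⟨h2, (MB.b1 k ht hx x1 ex).2.2 hu⟩
  rwa [fx_inf_cm k.two (k.odd_ord hx), mem_bot] at h4

end CL.FA
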