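import Cfsg.Agent.FGS.FA.NT1
import Cfsg.Agent.FGS.FA.Wr

/-!
# Anticentral elements, module lemma: an element of `F` centralizing `t` that acts on `[W, t]`
-/

set_option autoImplicit false
set_option linter.unusedSectionVars false
open Cfsg Subgroup CL.MSS CL.B2 CL.FZ.Mo

namespace CL.FA

variable {W : Type*} [CommGroup W] [Finite W] {F S : Subgroup (MulAut W)} {c t α : MulAut W} {m : ℕ}

namespace NT2

theorem five {U : Subgroup W} (h : Nat.card U = 4) {a b c d : W} (ha : a ∈ U) (hb : b ∈ U) (hc : c ∈ U) (hd : d ∈ U)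
    (a1 : a ≠ 1) (b1 : b ≠ 1) (c1 : c ≠ 1) (d1 : d ≠ 1) (ab : a ≠ b) (ac : a ≠ c) (ad : a ≠ d) (bc : b ≠ c)
    (bd : b ≠ d) (cd : c ≠ d) : False := by
  classical
  let _ := Fintype.ofFinite (U : Set W)
  have s : ({1, a, b, c, d} : Finset W) ⊆ (U : Set W).toFinset := by
    intro w hw
    simp only [Finset.mem_insert, Finset.mem_singleton] at hw
    rw [Set.mem_toFinset]
    rcases hw with rfl | rfl | rfl | rfl | rfl
    exacts [one_mem _, ha, hb, hc, hd]
  have k := Finset.card_le_card s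
  rw [Set.toFinset_card, ← Nat.card_eq_fintype_card,
    Finset.card_insert_of_notMem (by simp [a1.symm, b1.symm, c1.symm, d1.symm]),
    Finset.card_insert_of_notMem (by simp [ab, ac, ad]), Finset.card_insert_of_notMem (by simp [bc, bd]),
    Finset.card_insert_of_notMem (by simp [cd]), Finset.card_singleton] at k
  exact absurd (k.trans h.le) (by norm_num)

theorem trans (two : ∀ w : W, w * w = 1) {U : Subgroup W} (h : Nat.card U = 4) (ho : Odd (orderOf c)) (i : Iv c U)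
    (nt : ¬ U ≤ fx c) {u u' : W} (hu : u ∈ U) (hu' : u' ∈ U) (u1 : u ≠ 1) (u1' : u' ≠ 1) :
    ∃ n : ℕ, (c ^ n) u = u' := by
  have sq : ∀ v, c (c v) = v → c v = v := fun v e => mem_fx.1 (fx_sq ho ▸ (e : v ∈ fx (c * c)))
  have nf : ∀ w ∈ U, w ≠ 1 → c w ≠ w := fun w hw w1 e => by
    obtain ⟨v, hv, nv⟩ := SetLike.not_le_iff_exists.1 nt
    rw [mem_fx] at nv
    have v1 : v ≠ 1 := fun e => nv (by simp [e])
    have wv : w ≠ v := fun k => nv (k ▸ e)
    refine five h hw hv (mul_mem hw hv) (i v hv) w1 v1 (fun k => wv ?_) (by simpa using v1) wv (by simpa using v1)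
      (fun k => wv (c.injective (e.trans k))) (by simpa using w1) (Ne.symm nv) fun k => nv (sq v ?_)
    · exact mul_right_cancel ((k.trans (two v).symm))
    · rw [← k, map_mul, e, ← k, ← mul_assoc, two, one_mul]
  by_contra! e
  have a1 : c u ≠ 1 := by simpa using u1
  exact five h hu (i u hu) (i _ (i u hu)) hu' u1 a1 (by simpa using u1) u1' (nf u hu u1).symm
    (fun k => nf u hu u1 (sq u k.symm)) (by simpa using e 0) (nf _ (i u hu) a1).symm (by simpa using e 1)
    (by simpa [pow_two] using e 2)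

end NT2

/-- Proof: `U = cm t` has order 4, `c` has odd order, normalizes `U` and does not centralize it, so `⟨c⟩` is transitive on
`U#` (`card_dec`; compare `FZ.MG.trans`). Take `1 ≠ u ∈ U`; `(α ^ m) u ∈ U#` (`hm`), so `(c ^ j) ((α ^ m) u) = u` for some
`j`. `β = c ^ j α` conjugates every small involution as `α` does (`c` centralizes them all, `MB.tt_cj`). `cp` with
`K = stb U`: `α ^ i c ^ j α ^ (-i)` fixes `U` since `c` fixes `cm (α ^ (-i) t α ^ i)`; so `(β ^ m) u = u`. `l2` with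
`k.ec (c ^ j)`. -/
theorem c1 (k : Hq F S α) (ht : Tt S t) (m0 : 0 < m) (hm : α ^ m * t * (α ^ m)⁻¹ = t)
    (mn : ∀ i, 0 < i → i < m → α ^ i * t * (α ^ i)⁻¹ ≠ t) (cF : c ∈ F) (ct : c * t = t * c)
    (cs : ∀ s, Tt S s → s ≠ t → c * s = s * c ∧ cm s ≤ fx c) (nt : ¬ cm t ≤ fx c) : False := by
  obtain ⟨x, xF, px, ex⟩ := MB.exists_inv k.toHm ht
  have h4 := (MB.b1 k.toHm ht xF (fun e => px.ne_one (by rw [e, orderOf_one])) ex).2.1
  obtain ⟨u, hu, u1⟩ : ∃ u ∈ cm t, u ≠ 1 := by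
    by_contra! e
    rw [show cm t = ⊥ from eq_bot_iff.2 fun u hu => mem_bot.2 (e u hu), card_bot] at h4
    omega
  have hu' := iv_cm hm hu
  obtain ⟨j, hj⟩ := NT2.trans k.two h4 (k.toHm.odd_ord cF) (iv_cm' (.inl (mul_inv_eq_iff_eq_mul.2 ct))) nt hu' hu
    (by simpa using u1) u1
  have cen : ∀ s, Tt S s → c ^ j * s * (c ^ j)⁻¹ = s := fun s hs => by
    have : Commute c s := by
      by_cases e : s = t
      · rw [e]; exact ct
      · exact (cs s hs e).1
    exact mul_inv_eq_iff_eq_mul.2 (this.pow_left j)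
  have same : ∀ s, Tt S s → c ^ j * α * s * (c ^ j * α)⁻¹ = α * s * α⁻¹ := fun s hs => by
    rw [← cen _ (MB.tt_cj hs k.aS)]; group
  have pw : ∀ i : ℕ, (c ^ j * α) ^ i * t * ((c ^ j * α) ^ i)⁻¹ = α ^ i * t * (α ^ i)⁻¹ := fun i => by
    induction i with
    | zero => simp
    | succ i ih =>
      have := same _ (MB.tt_cj ht (pow_mem k.aS i))
      rw [← ih] at this
      rw [pow_succ', pow_succ' α, mul_inv_rev, mul_inv_rev α, ← mul_assoc, ← mul_assoc, mul_assoc _ _ t, mul_assoc α _ t,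
        mul_assoc _ _ ((c ^ j * α) ^ i)⁻¹, mul_assoc α _ (α ^ i)⁻¹, this, ih]
  obtain ⟨q, hq, e⟩ := cp (K := stb (cm t)) (a := α) (x := c ^ j) m0 fun i i0 im w hw => by
    have h1 := MB.tt_cj ht (inv_mem (pow_mem k.aS i))
    have h2 := (cs _ h1 fun e => mn i i0 im
      ((congrArg (fun x => α ^ i * x * (α ^ i)⁻¹) e).symm.trans (by group))).2 (iv_cm rfl hw)
    rw [MulAut.mul_apply, MulAut.mul_apply, mem_fx.1 (fx_pow c j h2), MulAut.apply_inv_self]
  refine u1 (l2 (β := c ^ j * α) k.toHm (fun s hs => same s hs ▸ MB.tt_cj hs k.aS) (k.ec _ (pow_mem cF j)) ht m0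
    (fun i i0 im => pw i ▸ mn i i0 im) hu ?_)
  rw [e, MulAut.mul_apply, MulAut.mul_apply, hq _ hu', hj]

end CL.FA
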