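import Cfsg.Agent.FGS.FA.Defs

/-!
# Anticentral elements: the reduction to the core
-/

set_option autoImplicit false
open Cfsg Subgroup CL.Th CL.MSS CL.B2

namespace CL.FA

universe u

theorem cls {X : Type*} [Group X] (a : X) (Y : Subgroup X) :
    {x | ∃ y ∈ Y, y * a * y⁻¹ = x}.ncard = (centralizer ({a} : Set X)).relIndex Y := by
  let _ : MulAction Y X := MulAction.compHom X (MulAut.conj.comp Y.subtype)
  have e : ∀ (y : Y) (x : X), y • x = y * x * (y : X)⁻¹ := fun _ _ => rfl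
  have h1 : MulAction.stabilizer Y a = (centralizer ({a} : Set X)).subgroupOf Y := by
    ext y
    rw [MulAction.mem_stabilizer_iff, e, mem_subgroupOf, mem_centralizer_singleton_iff,
      mul_inv_eq_iff_eq_mul]
  rw [relIndex, ← h1, MulAction.index_stabilizer]
  congr 1
  ext x
  exact ⟨fun ⟨y, hy, h⟩ => ⟨⟨y, hy⟩, h⟩, fun ⟨y, h⟩ => ⟨y, y.2, h⟩⟩

theorem cst {X : Type*} [Group X] (a : X) (H : Subgroup X) :
    ((· * a) '' (H : Set X)).ncard = Nat.card H := by
  rw [Set.ncard_image_of_injective _ (mul_left_injective a), ← Nat.card_coe_set_eq]; rfl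

theorem cmr {X : Type*} [Group X] (H Y : Subgroup X) :
    Nat.card (Y ⊓ H : Subgroup X) * H.relIndex Y = Nat.card Y := by
  rw [← Nat.card_congr (subgroupOfEquivOfLe (inf_le_left : Y ⊓ H ≤ Y)).toEquiv, inf_subgroupOf_left]
  exact card_mul_index _

/-- Proof: the class of `a` in `X` contains `X' a`, so `|X'| ≤ |X : C(a)|`, i.e. `|C(a)| ≤ |X : X'| = |Y : Y ⊓ X'|`
(`Y ⊔ X' = ⊤`). Hence the `Y`-class of `a` has `|Y : C_Y(a)| ≥ |Y ⊓ X'|` elements; it lies in `(Y ⊓ X') a`
(`y a y⁻¹ = ⁅y, a⁆ a`), so it is this coset. -/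
theorem An.sub {X : Type*} [Group X] [Finite X] {a : X} (h : An a) {Y : Subgroup X} (aY : a ∈ Y)
    (sup : Y ⊔ commutator X = ⊤) {x : X} (xY : x ∈ Y) (hx : x ∈ commutator X) :
    ∃ y ∈ Y, y * a * y⁻¹ = x * a := by
  have h1 : Nat.card (commutator X) ≤ (centralizer ({a} : Set X)).index := by
    rw [← relIndex_top_right, ← cls, ← cst a]
    refine Set.ncard_le_ncard ?_
    rintro _ ⟨x, hx, rfl⟩
    obtain ⟨y, e⟩ := h x hx
    exact ⟨y, mem_top y, e⟩
  have h2 : Nat.card (centralizer ({a} : Set X)) ≤ (commutator X).relIndex Y := by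
    rw [← relIndex_sup_right, sup, relIndex_top_right]
    refine Nat.le_of_mul_le_mul_left ?_ (Nat.card_pos (α := commutator X))
    rw [card_mul_index, ← card_mul_index (centralizer ({a} : Set X)), mul_comm]
    exact Nat.mul_le_mul_left _ h1
  have h3 : Nat.card (Y ⊓ commutator X : Subgroup X) ≤ (centralizer ({a} : Set X)).relIndex Y := by
    refine Nat.le_of_mul_le_mul_right ?_ (Nat.pos_of_ne_zero
      (index_ne_zero_of_finite (H := (commutator X).subgroupOf Y)))
    change _ * relIndex _ _ ≤ _ * relIndex _ _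
    rw [cmr, ← cmr (centralizer ({a} : Set X)) Y, mul_comm]
    exact Nat.mul_le_mul_left _ ((card_le_of_le inf_le_right).trans h2)
  rw [← cls, ← cst a] at h3
  refine (Set.eq_of_subset_of_ncard_le ?_ h3).ge ⟨x, ⟨xY, hx⟩, rfl⟩
  rintro _ ⟨y, hy, rfl⟩
  exact ⟨y * a * y⁻¹ * a⁻¹, ⟨Y.mul_mem (Y.mul_mem (Y.mul_mem hy aY) (Y.inv_mem hy)) (Y.inv_mem aY),
    commutator_mem_commutator (mem_top y) (mem_top a)⟩, inv_mul_cancel_right _ _⟩

/-- Proof: strong induction on `Nat.card X`. Suppose `X` is not solvable; `N` a minimal normal subgroup. `An` passes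
to `X ⧸ N` (the commutator subgroup maps onto), so `X ⧸ N` is solvable and `N` is not; `⁅N, N⁆ = N` by minimality, so
`N ≤ X'`. `S` Sylow 2 in `N`, `A = 𝐍 S`, Frattini `N ⊔ A = ⊤`: `a = n b`, `b ∈ A`; `b = n⁻¹ a` is conjugate to `a`, so
`An b`. For `H ≤ N`, `A ≤ 𝐍 H` put `Y = H ⊔ A`: `Y ⊔ X' = ⊤`, and `An.sub` gives `Ac.cj`. If `Y = ⊤` then `H` is normal, so
`H = ⊥` or `H = N`; otherwise `An (⟨b, _⟩ : Y)` (`An.sub`, `Y' ≤ Y ⊓ X'`), so `Y` and `H` are solvable by induction. -/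
theorem red (core : ∀ (X : Type u) [Group X] [Finite X] (a : X) (A G S : Subgroup X), Ha a A G S → False)
    {X : Type u} [Group X] [Finite X] {a : X} (h : An a) : Group.IsSolvable X := by
  induction hn : Nat.card X using Nat.strong_induction_on generalizing X with
  | _ n ih =>
  subst hn
  by_contra ns
  have nt : (⊤ : Subgroup X) ≠ ⊥ := fun e => ns (Group.isSolvable_of_top_eq_bot X e)
  obtain ⟨N, ⟨hN, N0⟩, mn⟩ := exists_minimal_of_wellFoundedLT
    (fun N : Subgroup X => N.Normal ∧ N ≠ ⊥) ⟨⊤, inferInstance, nt⟩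
  have mn' : ∀ U ≤ N, U.Normal → U = ⊥ ∨ U = N := fun U hU hn =>
    or_iff_not_imp_left.2 fun e => le_antisymm hU (mn ⟨hn, e⟩ hU)
  have q : Group.IsSolvable (X ⧸ N) := by
    refine ih _ ?_ (a := (a : X ⧸ N)) (fun x hx => ?_) rfl
    · rw [card_eq_card_quotient_mul_card_subgroup N]
      exact lt_mul_of_one_lt_right Nat.card_pos ((one_lt_card_iff_ne_bot N).2 N0)
    · rw [_root_.commutator_def, ← map_top_of_surjective _ (QuotientGroup.mk'_surjective N),
        ← map_commutator] at hx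
      obtain ⟨x, hx, rfl⟩ := hx
      obtain ⟨y, e⟩ := h x hx
      exact ⟨y, congrArg (QuotientGroup.mk' N) e⟩
  have nN : ¬ Group.IsSolvable N := fun s => ns ((Group.isSolvable_iff_subgroup_quotient N).2 ⟨s, q⟩)
  have NX : N ≤ commutator X := by
    rcases mn' _ (commutator_le_left N N) inferInstance with e | e
    · exact (nN (Group.isSolvable_of_comm fun x y => Subtype.ext
        (commutatorElement_eq_one_iff_mul_comm.1
          (mem_bot.1 (e ▸ commutator_mem_commutator x.2 y.2))))).elim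
    · exact e.ge.trans (commutator_mono le_top le_top)
  have := Nat.fact_prime_two
  obtain ⟨S, hS⟩ := exists_sylIn 2 N
  have fr : N ⊔ 𝐍 S = ⊤ := by
    simpa using hS.frattini_sup (H := ⊤) le_top le_normalizer_of_normal
  obtain ⟨n, hn, b, hb, e⟩ := hS.frattini (le_normalizer_of_normal (mem_top a))
  have hb' : An b := fun x hx => by
    obtain ⟨y, e1⟩ := h _ (inv_mem (NX hn))
    obtain ⟨z, e2⟩ := h _ (mul_mem hx (inv_mem (NX hn)))
    have e3 : b = y * a * y⁻¹ := by rw [e1, e, inv_mul_cancel_left]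
    refine ⟨z * y⁻¹, ?_⟩
    rw [show x * b = x * n⁻¹ * a by rw [e]; group, ← e2, e3]; group
  have sub : ∀ H : Subgroup X, ∀ x ∈ H ⊔ 𝐍 S, x ∈ commutator X →
      ∃ y ∈ H ⊔ 𝐍 S, y * b * y⁻¹ = x * b := fun H x h1 h2 =>
    hb'.sub (mem_sup_right hb) (eq_top_iff.2 (fr.ge.trans
      (sup_le (NX.trans le_sup_right) (le_sup_right.trans le_sup_left)))) h1 h2
  refine core X b (𝐍 S) N S ⟨⟨hb, fun H hH _ x hx => sub H x (mem_sup_left hx) (NX (hH hx))⟩,
    le_normalizer_of_normal, hS, le_rfl, fun H hH nH ne => ?_, hN, fun U hU h1 h2 =>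
      mn' U hU (normalizer_eq_top_iff.1 (eq_top_iff.2 (fr.ge.trans (sup_le h1 h2)))), nN⟩
  by_cases t : H ⊔ 𝐍 S = ⊤
  · rw [(mn' H hH (normalizer_eq_top_iff.1 (eq_top_iff.2
      (t.ge.trans (sup_le le_normalizer nH))))).resolve_right ne]
    infer_instance
  have : Group.IsSolvable (H ⊔ 𝐍 S : Subgroup X) := by
    refine ih _ ?_ (a := ⟨b, mem_sup_right hb⟩) (fun x hx => ?_) rfl
    · rw [← card_top (G := X)]
      exact card_lt_of_lt (lt_top_iff_ne_top.2 t)
    · have : (x : X) ∈ commutator X := by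
        have := mem_map_of_mem (H ⊔ 𝐍 S).subtype hx
        rw [_root_.commutator_def, map_commutator] at this
        exact commutator_mono le_top le_top this
      obtain ⟨y, hy, e⟩ := sub H x x.2 this
      exact ⟨⟨y, hy⟩, Subtype.ext e⟩
  exact Group.isSolvable_of_isSolvable_injective (inclusion_injective (le_sup_left : H ≤ H ⊔ 𝐍 S))

end CL.FA
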